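import Cfsg.Agent.CharGraph.NoDiv.Action
import Cfsg.Agent.S0033

/-!
# Degrees of a group with an abelian complement of its derived subgroup

In the setting of `Action`, all inertia groups of non-trivial linear characters of the derived
subgroup are equal, the derived subgroup is abelian, and all non-linear degrees coincide.
-/

namespace Cfsg.Agent.CharGraph.NoDiv

set_option autoImplicit false
set_option linter.unusedSectionVars false
set_option linter.style.haveILetI false

open Cfsg
open scoped ComplexConjugate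
open Cfsg.Agent.Char (irr_charDegree_spec)
open scoped commutatorElement

universe u

variable {K : Type u} [Group K] [Finite K]

theorem mem_invDual_self (l : commutator K →* ℂˣ) : l ∈ invDual (commutator K) := fun n hn =>
  (dualAct_eq_iff _ n l).2 (CharExt.le_inertia _
    (Char.irr_isClassFunction (Char.isIrrCharacter_monoidHom l)) hn)

section WithSetting

variable (S : Setting K)
include S

theorem Setting.inertia_ne_top {l : commutator K →* ℂˣ} (hl : l ≠ 1) :
    CharExt.inertia (commutator K) (CharExt.homVal l) ≠ ⊤ := fun h =>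
  S.free le_rfl (mem_invDual_self l) hl S.hy
    ((dualAct_eq_iff _ S.y l).2 (h ▸ Subgroup.mem_top _))

/-- The length of an orbit is a non-linear degree. -/
theorem Setting.exists_degree_index {l : commutator K →* ℂˣ} (hl : l ≠ 1) :
    ∃ ψ : IrrCharacter K, charDegree (ψ : K → ℂ) ≠ 1 ∧
      charDegree (ψ : K → ℂ) = (CharExt.inertia (commutator K) (CharExt.homVal l)).index := by
  classical
  letI := Fintype.ofFinite K
  have hirr : IsIrrCharacter (commutator K) (CharExt.homVal l) := Char.isIrrCharacter_monoidHom l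
  set T := CharExt.inertia (commutator K) (CharExt.homVal l) with hTdef
  letI := Fintype.ofFinite T
  letI := Fintype.ofFinite (commutator K)
  have hNT : (commutator K) ≤ T := CharExt.le_inertia (commutator K) (Char.irr_isClassFunction hirr)
  choose rep hrA hrN using S.exists_rep
  have hrep : ∀ {k a : K}, a ∈ S.A → k * a⁻¹ ∈ (commutator K) → rep k = a := fun {k a} ha hk => by
    refine (inv_mul_eq_one.1 (S.eq_one_of_mem (mul_mem (inv_mem ha) (hrA k)) ?_)).symm
    have h1 := mul_mem (inv_mem hk) (hrN k)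
    rw [show (k * a⁻¹)⁻¹ * (k * (rep k)⁻¹) = a * (rep k)⁻¹ by group] at h1
    have h2 := (inferInstance : (commutator K).Normal).conj_mem _ (inv_mem h1) a⁻¹
    rwa [show a⁻¹ * (a * (rep k)⁻¹)⁻¹ * a⁻¹⁻¹ = a⁻¹ * rep k by group] at h2
  have hmem : ∀ s t : K, s * t * (rep s * rep t)⁻¹ ∈ (commutator K) := fun s t => by
    rw [show s * t * (rep s * rep t)⁻¹ =
      s * (rep s)⁻¹ * (rep s * (t * (rep t)⁻¹) * (rep s)⁻¹) by group]
    exact mul_mem (hrN s) ((inferInstance : (commutator K).Normal).conj_mem _ (hrN t) _)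
  have hrm : ∀ s t : K, rep (s * t) = rep s * rep t := fun s t =>
    hrep (mul_mem (hrA s) (hrA t)) (hmem s t)
  let ξ : T →* ℂˣ := MonoidHom.mk' (fun t => l ⟨(t : K) * (rep t)⁻¹, hrN t⟩) fun s t => by
    have hs : rep (s : K) ∈ T := by
      rw [show rep (s : K) = ((s : K) * (rep (s : K))⁻¹)⁻¹ * s by group]
      exact mul_mem (inv_mem (hNT (hrN _))) s.2
    have e : (⟨((s * t : T) : K) * (rep ((s * t : T) : K))⁻¹, hrN _⟩ : (commutator K)) =
        ⟨(s : K) * (rep (s : K))⁻¹, hrN _⟩ * ⟨rep (s : K) * ((t : K) * (rep (t : K))⁻¹) *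
          (rep (s : K))⁻¹, (inferInstance : (commutator K).Normal).conj_mem _ (hrN _) _⟩ := by
      refine Subtype.ext ?_
      show _ = (s : K) * (rep (s : K))⁻¹ * (rep (s : K) * ((t : K) * (rep (t : K))⁻¹) *
        (rep (s : K))⁻¹)
      show (s : K) * (t : K) * (rep ((s : K) * (t : K)))⁻¹ = _
      rw [hrm]
      group
    rw [e, map_mul]
    refine congrArg (_ * ·) (Units.ext ?_)
    exact congrFun (CharExt.mem_inertia.1 hs) ⟨_, hrN _⟩
  have hξN : ∀ n : (commutator K), ξ ⟨(n : K), hNT n.2⟩ = l n := fun n => by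
    show l ⟨(n : K) * (rep (n : K))⁻¹, _⟩ = l n
    refine congrArg l (Subtype.ext ?_)
    show (n : K) * (rep (n : K))⁻¹ = n
    rw [hrep (one_mem S.A) (by simpa using n.2), inv_one, mul_one]
  have hξ : IsIrrCharacter T (CharExt.homVal ξ) := Char.isIrrCharacter_monoidHom ξ
  have hc : classInner (fun n : (commutator K) => CharExt.homVal ξ ⟨(n : K), hNT n.2⟩) (CharExt.homVal l) ≠ 0 := by
    rw [show (fun n : (commutator K) => CharExt.homVal ξ ⟨(n : K), hNT n.2⟩) = CharExt.homVal l from
      funext fun n => congrArg Units.val (hξN n), Char.classInner_irr_self hirr]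
    exact one_ne_zero
  have hind := OddChar.indFun_inertia_irr (commutator K) T hNT hirr
    (fun g => ⟨fun h n => congrFun h n, fun h => funext h⟩) hξ hc
  have hd : charDegree (indFun T (CharExt.homVal ξ)) = T.index := by
    have h := (irr_charDegree_spec hind).2
    rw [CharInd.indFun_one_apply] at h
    simp [CharExt.homVal] at h
    exact_mod_cast h.symm
  exact ⟨⟨_, hind⟩, fun h => S.inertia_ne_top hl (Subgroup.index_eq_one.1 (hd.symm.trans h)), hd⟩

theorem Setting.inertia_uniform {v w : commutator K →* ℂˣ} (hv : v ≠ 1) (hw : w ≠ 1) :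
    CharExt.inertia (commutator K) (CharExt.homVal v) =
      CharExt.inertia (commutator K) (CharExt.homVal w) := by
  haveI : Finite (Abelianization K) := inferInstanceAs (Finite (K ⧸ commutator K))
  haveI := Char.monoidHom_complex_finite (G := ↥(commutator K))
  let ρ : Abelianization K →* MulAut (commutator K →* ℂˣ) :=
    QuotientGroup.lift (commutator K) (dualAct (commutator K)) fun n hn =>
      MonoidHom.mem_ker.2 (MulEquiv.ext fun l => mem_invDual_self l n hn)
  have hρ : ∀ k l, ρ (Abelianization.of k) l = dualAct (commutator K) k l := fun k l => rfl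
  have hanti : ∀ v w : commutator K →* ℂˣ, v ≠ 1 → w ≠ 1 → (∀ a, ρ a v = v → ρ a w = w) →
      ∀ a, ρ a w = w → ρ a v = v := fun v w hv hw hle a ha => by
    obtain ⟨k, rfl⟩ := QuotientGroup.mk_surjective a
    refine (dualAct_eq_iff _ k v).2 ?_
    have hle' : CharExt.inertia (commutator K) (CharExt.homVal v) ≤
        CharExt.inertia (commutator K) (CharExt.homVal w) := fun x hx =>
      (dualAct_eq_iff _ x w).1 (hle (Abelianization.of x) ((dualAct_eq_iff _ x v).2 hx))
    obtain ⟨ψv, hψv, hdv⟩ := S.exists_degree_index hv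
    obtain ⟨ψw, hψw, hdw⟩ := S.exists_degree_index hw
    have hi := S.noDiv ψw ψv hψw hψv (by rw [hdv, hdw]; exact Subgroup.index_dvd_of_le hle')
    rw [hdv, hdw] at hi
    rw [Subgroup.eq_of_le_of_card_ge hle' (le_of_eq ?_)]
    · exact (dualAct_eq_iff _ k w).1 ha
    · refine Nat.eq_of_mul_eq_mul_left
        (Nat.pos_of_ne_zero (Subgroup.index_ne_zero_of_finite
          (H := CharExt.inertia (commutator K) (CharExt.homVal v)))) ?_
      rw [Subgroup.index_mul_card, ← hi, Subgroup.index_mul_card]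
  have key := @stab_uniform (Abelianization K) (commutator K →* ℂˣ) _ _ _ _ ρ hanti
  ext k
  rw [← dualAct_eq_iff, ← dualAct_eq_iff]
  exact ⟨fun h => key v w hv hw (Abelianization.of k) h,
    fun h => key w v hw hv (Abelianization.of k) h⟩

omit S in
/-- A non-linear character has a non-trivial constituent on the derived subgroup. -/
theorem exists_constituent_ne_one [Fintype K] (N : Subgroup K) [N.Normal] [Fintype N]
    (hN : commutator K ≤ N) (ψ : IrrCharacter K) (hψ : charDegree (ψ : K → ℂ) ≠ 1) :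
    ∃ θ : IrrCharacter N, (θ : N → ℂ) ≠ CharExt.homVal (1 : N →* ℂˣ) ∧
      classInner (fun n : N => (ψ : K → ℂ) n) (θ : N → ℂ) ≠ 0 := by
  classical
  obtain ⟨θ, e, he, hc⟩ := Char.exists_irr_constituent
    (CharInd.isCharacter_res N (Char.isCharacter_of_irr ψ.2))
    (fun h => Char.irr_one_ne_zero ψ.2 (congrFun h 1))
  have hc0 : classInner (fun n : N => (ψ : K → ℂ) n) (θ : N → ℂ) ≠ 0 := by
    rw [hc]; exact_mod_cast he.ne'
  refine ⟨θ, fun h1 => hψ ?_, hc0⟩
  have hcl := CharInd.clifford N ψ.2 θ.2 hc0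
  have hconst : ∀ n : N, (ψ : K → ℂ) n = (ψ : K → ℂ) 1 := fun n => by
    have hn := congrFun hcl n
    have hn1 := congrFun hcl 1
    simp only [Pi.smul_apply, Finset.sum_apply] at hn hn1
    rw [hn, show (ψ : K → ℂ) 1 = (ψ : K → ℂ) ((1 : N) : K) from rfl, hn1]
    congr 1
    refine Finset.sum_congr rfl fun φ hφ => ?_
    obtain ⟨x, rfl⟩ := (CharInd.mem_conjClass N).1 hφ
    rw [CharInd.conjChar_apply, CharInd.conjChar_apply, h1]
    rfl
  obtain ⟨ψ', hψ', hval⟩ := Char.irr_exists_descend ψ.2 N fun n hn => hconst ⟨n, hn⟩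
  have hcomm : ∀ a b : K ⧸ N, a * b = b * a := fun a b => by
    obtain ⟨a, rfl⟩ := QuotientGroup.mk_surjective a
    obtain ⟨b, rfl⟩ := QuotientGroup.mk_surjective b
    rw [← QuotientGroup.mk_mul, ← QuotientGroup.mk_mul, QuotientGroup.eq]
    refine hN ?_
    rw [show (a * b)⁻¹ * (b * a) = b⁻¹ * a⁻¹ * (b⁻¹)⁻¹ * (a⁻¹)⁻¹ by group]
    exact Subgroup.commutator_mem_commutator (Subgroup.mem_top _) (Subgroup.mem_top _)
  have h := Char.irr_degree_one_of_comm hcomm hψ'
  rw [← QuotientGroup.mk_one, ← hval, (irr_charDegree_spec ψ.2).2] at h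
  exact_mod_cast h

theorem Setting.nilpotent : Group.IsNilpotent (commutator K) := by
  haveI := Fact.mk S.hr
  rcases eq_or_ne (commutator K) ⊥ with h | h
  · haveI : Subsingleton (commutator K) := by rw [h]; infer_instance
    infer_instance
  set φ : MulAut (commutator K) := MulAut.conjNormal S.y with hφ
  have hfix : ∀ x, φ x = x → x = 1 := fun x hx => by
    refine Subtype.ext (S.centralizer_trivial x.2 ?_)
    have h1 := congrArg Subtype.val hx
    simp [φ] at h1
    show (x : K) * S.y = S.y * x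
    exact (mul_inv_eq_iff_eq_mul.1 h1).symm
  refine S0033.result φ (fun x hx => hfix x hx) S.r S.hr (orderOf_eq_prime ?_ fun h1 => h ?_)
  · rw [hφ, ← map_pow, S.hyr, map_one]
  · refine (Subgroup.eq_bot_iff_forall _).2 fun x hx => ?_
    exact congrArg Subtype.val (hfix ⟨x, hx⟩ (by rw [h1]; rfl))

omit S in
/-- In a nilpotent subgroup, commutation with the subgroup is strictly decreasing. -/
theorem commutator_lt_of_nilpotent {N X : Subgroup K} [X.Normal] (hX : X ≤ N)
    (hnil : Group.IsNilpotent N) (hne : X ≠ ⊥) : ¬ X ≤ ⁅X, N⁆ := by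
  intro hle
  obtain ⟨n, hn⟩ := Subgroup.nilpotent_iff_lowerCentralSeries.1 hnil
  have key : ∀ m, X.subgroupOf N ≤ (⊤ : Subgroup N).lowerCentralSeries m := by
    intro m
    induction m with
    | zero => simp
    | succ m ih =>
      intro x hx
      have hmap : ⁅X, N⁆ ≤ (⁅X.subgroupOf N, (⊤ : Subgroup N)⁆).map N.subtype := by
        rw [Subgroup.map_commutator, Subgroup.map_subgroupOf_eq_of_le hX,
          ← MonoidHom.range_eq_map, Subgroup.range_subtype]
      obtain ⟨z, hz, hzx⟩ := hmap (hle (Subgroup.mem_subgroupOf.1 hx))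
      rw [← Subtype.ext (show (z : K) = (x : K) from hzx)]
      exact Subgroup.commutator_mono ih le_rfl hz
  refine hne ((Subgroup.eq_bot_iff_forall _).2 fun x hx => ?_)
  have h1 := key n (Subgroup.mem_subgroupOf.2 (show ((⟨x, hX hx⟩ : N) : K) ∈ X from hx))
  rw [hn, Subgroup.mem_bot] at h1
  exact congrArg Subtype.val h1

end WithSetting

/-- The invariant linear characters of exponent `u`. -/
def invTor (X : Subgroup K) [X.Normal] (u : ℕ) : Subgroup (X →* ℂˣ) :=
  invDual X ⊓ (powMonoidHom u).ker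

theorem mem_invTor {X : Subgroup K} [X.Normal] {u : ℕ} {l : X →* ℂˣ} :
    l ∈ invTor X u ↔ l ∈ invDual X ∧ l ^ u = 1 := by
  rw [invTor, Subgroup.mem_inf, MonoidHom.mem_ker, powMonoidHom_apply]

theorem card_ne_one_eq {G : Type*} [Group G] [Finite G] :
    Nat.card {x : G // x ≠ 1} = Nat.card G - 1 := by
  classical
  letI := Fintype.ofFinite G
  rw [Nat.card_eq_fintype_card, Nat.card_eq_fintype_card, Fintype.card_subtype_compl,
    Fintype.card_subtype_eq]

theorem exists_exponents (S : Setting K) {X : Subgroup K} [X.Normal] (hX : X ≤ commutator K)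
    (hσX : ∀ x ∈ X, S.σ x ∈ X) {u : ℕ} (hu : u.Prime) (hne : Nonempty (Pts X u)) :
    ∃ n a, 1 ≤ a ∧ Nat.card (invTor X u) = u ^ n ∧
      u ^ n - 1 = Nat.card (moving S.τ S.p) * (u ^ a - 1) := by
  haveI := Fact.mk hu
  haveI := Char.monoidHom_complex_finite (G := ↥X)
  haveI : Finite (Pts X u) := Subtype.finite
  have hP : IsPGroup u (invTor X u) := fun l => ⟨1, Subtype.ext (by
    rw [pow_one]; exact (mem_invTor.1 l.2).2)⟩
  obtain ⟨n, hn⟩ := IsPGroup.iff_card.1 hP
  let W : Subgroup (X →* ℂˣ) :=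
    { carrier := {l | ∀ x : X, l ⟨S.σ x, hσX x x.2⟩ = l x}
      one_mem' := fun x => rfl
      mul_mem' := fun {a b} ha hb x => by
        show a _ * b _ = a x * b x
        rw [ha x, hb x]
      inv_mem' := fun {a} ha x => by
        show (a _)⁻¹ = (a x)⁻¹
        rw [ha x] }
  obtain ⟨a, ha⟩ := IsPGroup.iff_card.1 (hP.to_le (inf_le_left : invTor X u ⊓ W ≤ invTor X u))
  obtain ⟨s, hs, hcount⟩ := S.card_pts hX hσX u
  have hpts : Nat.card (Pts X u) = u ^ n - 1 := by
    rw [← hn, ← card_ne_one_eq]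
    exact Nat.card_congr
      { toFun := fun l => ⟨⟨l.1, mem_invTor.2 ⟨l.2.1, l.2.2.1⟩⟩, fun h => l.2.2.2
          (congrArg Subtype.val h)⟩
        invFun := fun l => ⟨l.1.1, (mem_invTor.1 l.1.2).1, (mem_invTor.1 l.1.2).2, fun h => l.2
          (Subtype.ext h)⟩
        left_inv := fun l => rfl
        right_inv := fun l => rfl }
  have hfix : Nat.card {l : Pts X u // s l = l} = u ^ a - 1 := by
    rw [← ha, ← card_ne_one_eq]
    exact Nat.card_congr
      { toFun := fun l => ⟨⟨l.1.1, ⟨mem_invTor.2 ⟨l.1.2.1, l.1.2.2.1⟩, fun x => by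
            show l.1.1 ⟨S.σ x, hσX x x.2⟩ = l.1.1 x
            rw [← hs, l.2]⟩⟩, fun h => l.1.2.2.2 (congrArg Subtype.val h)⟩
        invFun := fun l => ⟨⟨l.1.1, (mem_invTor.1 (Subgroup.mem_inf.1 l.1.2).1).1, (mem_invTor.1 (Subgroup.mem_inf.1 l.1.2).1).2, fun h => l.2
          (Subtype.ext h)⟩, Subtype.ext (MonoidHom.ext fun x => (hs _ x).trans ((Subgroup.mem_inf.1 l.1.2).2 x))⟩
        left_inv := fun l => rfl
        right_inv := fun l => rfl }
  rw [hpts, hfix] at hcount
  refine ⟨n, a, ?_, hn, hcount⟩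
  by_contra h
  have h0 : a = 0 := by omega
  rw [h0, pow_zero, Nat.sub_self, mul_zero] at hcount
  have : 0 < Nat.card (Pts X u) := Nat.card_pos
  omega

/-- The derived subgroup of a subgroup lies in the image of commutators. -/
theorem map_commutator_subtype (N : Subgroup K) : (commutator N).map N.subtype = ⁅N, N⁆ := by
  rw [commutator_def, Subgroup.map_commutator, ← MonoidHom.range_eq_map, Subgroup.range_subtype]

section Pairing

variable {N : Subgroup K} [N.Normal] (μ : (⁅N, N⁆ : Subgroup K) →* ℂˣ)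
  (hμ : ∀ n ∈ N, dualAct ⁅N, N⁆ n μ = μ)

/-- The commutator of two elements, in the derived subgroup. -/
def commElt (w x : N) : (⁅N, N⁆ : Subgroup K) :=
  ⟨⁅(w : K), (x : K)⁆, Subgroup.commutator_mem_commutator w.2 x.2⟩

include hμ in
theorem invariant_apply (n : N) (c : (⁅N, N⁆ : Subgroup K)) :
    μ ⟨(n : K) * c * (n : K)⁻¹, (inferInstance : (⁅N, N⁆ : Subgroup K).Normal).conj_mem c c.2 n⟩ =
      μ c := by
  have h := DFunLike.congr_fun (hμ _ (inv_mem n.2)) c
  rw [dualAct_apply] at h
  exact (congrArg μ (Subtype.ext (by simp))).trans h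

/-- The pairing given by an invariant character of the derived subgroup. -/
def pairing : N →* (N →* ℂˣ) :=
  MonoidHom.mk' (fun w => MonoidHom.mk' (fun x => μ (commElt w x)) fun x y => by
    have e : commElt w (x * y) = commElt w x * ⟨(x : K) * commElt w y * (x : K)⁻¹,
        (inferInstance : (⁅N, N⁆ : Subgroup K).Normal).conj_mem _ (commElt w y).2 x⟩ := Subtype.ext (by
      simp [commElt, commutatorElement_def, mul_assoc])
    rw [e, map_mul, invariant_apply μ hμ]) fun w z => MonoidHom.ext fun x => by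
    have e : commElt (w * z) x = ⟨(w : K) * commElt z x * (w : K)⁻¹,
        (inferInstance : (⁅N, N⁆ : Subgroup K).Normal).conj_mem _ (commElt z x).2 w⟩ * commElt w x :=
      Subtype.ext (by simp [commElt, commutatorElement_def, mul_assoc])
    show μ (commElt (w * z) x) = μ (commElt w x) * μ (commElt z x)
    rw [e, map_mul, invariant_apply μ hμ, mul_comm]

theorem pairing_apply (w x : N) : pairing μ hμ w x = μ (commElt w x) := rfl

include hμ in
theorem exists_pairing_ne_one (h1 : μ ≠ 1) : ∃ w, pairing μ hμ w ≠ 1 := by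
  by_contra hc
  push Not at hc
  refine h1 (MonoidHom.ext fun c => ?_)
  have hle : (⁅N, N⁆ : Subgroup K) ≤ μ.ker.map (⁅N, N⁆ : Subgroup K).subtype :=
    Subgroup.commutator_le.2 fun a ha b hb =>
      ⟨commElt ⟨a, ha⟩ ⟨b, hb⟩, MonoidHom.mem_ker.2 (DFunLike.congr_fun (hc ⟨a, ha⟩) ⟨b, hb⟩), rfl⟩
  obtain ⟨z, hz, hzc⟩ := hle c.2
  rw [← Subtype.ext hzc]
  exact hz

end Pairing

/-- An element outside a subgroup containing the derived subgroup has a power of prime-power
order outside it. -/
theorem exists_primePow_notMem {I : Subgroup K} (hI : commutator K ≤ I) {k : K} (hk : k ∉ I) :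
    ∃ (s j e : ℕ), s.Prime ∧ orderOf (k ^ j) = s ^ e ∧ k ^ j ∉ I := by
  haveI : I.Normal := Subgroup.Normal.of_commutator_le (G := K) hI
  have hm : orderOf (QuotientGroup.mk k : K ⧸ I) ≠ 1 := fun h =>
    hk ((QuotientGroup.eq_one_iff k).1 (orderOf_eq_one_iff.1 h))
  obtain ⟨s, hs, hsm⟩ := Nat.exists_prime_and_dvd hm
  refine ⟨s, ordCompl[s] (orderOf k), (orderOf k).factorization s, hs, ?_, fun h => ?_⟩
  · rw [orderOf_pow_of_dvd (Nat.ordCompl_pos s (orderOf_pos k).ne').ne' (Nat.ordCompl_dvd _ _)]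
    exact Nat.div_div_self (Nat.ordProj_dvd _ _) (orderOf_pos k).ne'
  · have h1 : orderOf (QuotientGroup.mk k : K ⧸ I) ∣ ordCompl[s] (orderOf k) :=
      orderOf_dvd_of_pow_eq_one (by rw [← QuotientGroup.mk_pow]; exact (QuotientGroup.eq_one_iff _).2 h)
    exact Nat.not_dvd_ordCompl hs (orderOf_pos k).ne' (hsm.trans h1)

/-- A character fixed on `M` by an element of order prime to `u` agrees there with a fixed one. -/
theorem exists_fixed_agreeing {X : Subgroup K} [X.Normal] {u : ℕ} (hu : u.Prime) {k : K}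
    (hk : (orderOf k).Coprime u) {χ : X →* ℂˣ} (hχ : χ ∈ invTor X u) (M : Subgroup X)
    (hfix : ∀ w ∈ M, dualAct X k χ w = χ w)
    (hM : ∀ w ∈ M, (⟨k⁻¹ * (w : X) * k, by
      simpa using (inferInstance : X.Normal).conj_mem _ (w : X).2 k⁻¹⟩ : X) ∈ M) :
    ∃ χ' ∈ invTor X u, dualAct X k χ' = χ' ∧ ∀ w ∈ M, χ' w = χ w := by
  obtain ⟨c, -, hc⟩ := Nat.exists_mul_mod_eq_one_of_coprime hk hu.one_lt
  set o := orderOf k with ho
  set χ' := (∏ j ∈ Finset.range o, dualAct X (k ^ j) χ) ^ c with hχ'
  have hj : ∀ (j : ℕ), ∀ w ∈ M, dualAct X (k ^ j) χ w = χ w := by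
    intro j
    induction j with
    | zero => intro w _; rw [pow_zero, map_one]; rfl
    | succ j ih =>
      intro w hw
      rw [pow_succ', map_mul, MulAut.mul_apply, dualAct_apply, ih _ (hM w hw), ← dualAct_apply,
        hfix w hw]
  have hmem : ∀ j, dualAct X (k ^ j) χ ∈ invTor X u := fun j => mem_invTor.2
    ⟨dualAct_mem (mem_invTor.1 hχ).1 _, by
      rw [← map_pow (dualAct X (k ^ j)), (mem_invTor.1 hχ).2, map_one]⟩
  refine ⟨χ', pow_mem (Subgroup.prod_mem _ fun j _ => hmem j) c, ?_, fun w hw => ?_⟩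
  · rw [hχ', map_pow (dualAct X k), map_prod (dualAct X k)]
    congr 1
    have h1 : ∀ j, dualAct X k (dualAct X (k ^ j) χ) = dualAct X (k ^ (j + 1)) χ := fun j => by
      rw [pow_succ', map_mul, MulAut.mul_apply]
    rw [Finset.prod_congr rfl fun j _ => h1 j]
    have h2 := Finset.prod_range_succ (fun j => dualAct X (k ^ j) χ) o
    rw [Finset.prod_range_succ' (fun j => dualAct X (k ^ j) χ) o, ho, pow_orderOf_eq_one, ← ho,
      pow_zero] at h2
    exact mul_right_cancel h2
  · rw [hχ', MonoidHom.pow_apply, MonoidHom.finsetProd_apply,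
      Finset.prod_congr rfl fun j _ => hj j w hw, Finset.prod_const, Finset.card_range, ← pow_mul,
      ← Nat.mod_add_div (o * c) u, pow_add, pow_mul, ← MonoidHom.pow_apply χ u, (mem_invTor.1 hχ).2,
      MonoidHom.one_apply, one_pow, hc, mul_one, pow_one]

end Cfsg.Agent.CharGraph.NoDiv
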