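import Mathlib

/-!
# Two lemmas on abelian groups acting on abelian groups

A counting identity for an action whose orbits are all stable under a compatible automorphism of
prime-power order, and the equality of all stabilisers when no stabiliser properly contains another.
-/

namespace Cfsg.Agent.CharGraph.NoDiv

set_option autoImplicit false

section Count

set_option linter.unusedSectionVars false
set_option linter.style.haveILetI false

variable {A : Type*} [CommGroup A] (σ : MulAut A) (p : ℕ)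

/-- The map `a ↦ σ a / a`. -/
def dev : A →* A where
  toFun a := σ a / a
  map_one' := by simp
  map_mul' a b := by rw [map_mul, mul_div_mul_comm]

theorem dev_apply (a : A) : dev σ a = σ a / a := rfl

theorem sigma_eq (a : A) : σ a = a * dev σ a := by rw [dev_apply, mul_div_cancel]

/-- The elements `σ a / a` with `a` of order prime to `p`. -/
noncomputable def moving : Subgroup A :=
  ((powMonoidHom (ordCompl[p] (Nat.card A))).ker).map (dev σ)

variable {σ p} [Finite A]

theorem eq_one_of_pows {G : Type*} [Group G] (hp : p.Prime) {a : G} {j : ℕ}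
    (h : a ^ ordCompl[p] (Nat.card A) = 1) (h' : a ^ p ^ j = 1) : a = 1 := by
  have hc : Nat.Coprime (ordCompl[p] (Nat.card A)) (p ^ j) :=
    ((Nat.coprime_ordCompl hp (Nat.card_pos (α := A)).ne').symm).pow_right j
  have h2 := Nat.eq_one_of_dvd_coprimes hc (orderOf_dvd_of_pow_eq_one h)
    (orderOf_dvd_of_pow_eq_one h')
  exact orderOf_eq_one_iff.1 h2

theorem moving_pow {d : A} (hd : d ∈ moving σ p) : d ^ ordCompl[p] (Nat.card A) = 1 := by
  obtain ⟨a, ha, rfl⟩ := Subgroup.mem_map.1 hd
  rw [MonoidHom.mem_ker, powMonoidHom_apply] at ha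
  rw [← map_pow, ha, map_one]

theorem eq_one_of_mem_moving (hp : p.Prime) {i : ℕ} (hσ : σ ^ p ^ i = 1) {d : A}
    (hd : d ∈ moving σ p) (hfix : σ d = d) : d = 1 := by
  obtain ⟨a, -, rfl⟩ := Subgroup.mem_map.1 hd
  have h : ∀ k : ℕ, (σ ^ k) a = a * dev σ a ^ k := by
    intro k
    induction k with
    | zero => simp
    | succ k ih =>
      rw [pow_succ', MulAut.mul_apply, ih, map_mul, map_pow, hfix, sigma_eq σ a, pow_succ',
        mul_assoc]
  have h1 := h (p ^ i)
  rw [hσ, MulAut.one_apply, left_eq_mul] at h1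
  exact eq_one_of_pows hp (moving_pow hd) h1

theorem exists_dev_eq (hp : p.Prime) {i : ℕ} (hσ : σ ^ p ^ i = 1) {d : A}
    (hd : d ∈ moving σ p) : ∃ b ∈ moving σ p, dev σ b = d := by
  let f : moving σ p → moving σ p := fun b =>
    ⟨dev σ b, Subgroup.mem_map.2 ⟨b, by
      rw [MonoidHom.mem_ker, powMonoidHom_apply]; exact moving_pow b.2, rfl⟩⟩
  have hinj : Function.Injective f := fun b c h => by
    have h' : dev σ (b : A) = dev σ (c : A) := congrArg Subtype.val h
    have h'' : dev σ ((b : A) / c) = 1 := by rw [map_div, h', div_self']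
    refine Subtype.ext (div_eq_one.1 (eq_one_of_mem_moving hp hσ (div_mem b.2 c.2) ?_))
    rw [sigma_eq σ, h'', mul_one]
  obtain ⟨b, hb⟩ := Finite.surjective_of_injective hinj ⟨d, hd⟩
  exact ⟨b, b.2, congrArg Subtype.val hb⟩

theorem act_iterate {Y : Type*} (act : A →* Equiv.Perm Y) (s : Y → Y)
    (hcompat : ∀ a y, s (act a y) = act (σ a) (s y)) {c : A} (hc : σ c = c) {z : Y}
    (hz : s z = act c z) : ∀ k : ℕ, s^[k] z = act (c ^ k) z := by
  intro k
  induction k with
  | zero => simp
  | succ k ih =>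
    rw [Function.iterate_succ_apply', ih, hcompat, map_pow, hc, hz, ← Equiv.Perm.mul_apply,
      ← map_mul, ← pow_succ]

/-- All orbits stable under `s`: the points are the translates of the fixed points. -/
theorem card_eq_moving_mul {Y : Type*} (act : A →* Equiv.Perm Y) (s : Y → Y)
    (hp : p.Prime) {i : ℕ} (hσ : σ ^ p ^ i = 1) (hs : ∀ y, s^[p ^ i] y = y)
    (hcompat : ∀ a y, s (act a y) = act (σ a) (s y))
    (horb : ∀ y, ∃ a, s y = act a y)
    (hidx : ∀ y (a : A) (j : ℕ), a ^ p ^ j = 1 → act a y = y)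
    (hfree : ∀ a, σ a ≠ a → ∀ y, act a y ≠ y) :
    Nat.card Y = Nat.card (moving σ p) * Nat.card {y : Y // s y = y} := by
  classical
  set m := ordCompl[p] (Nat.card A) with hm
  let f : moving σ p × {y : Y // s y = y} → Y := fun x => act (x.1 : A) x.2
  rw [← Nat.card_prod]
  refine (Nat.card_congr (Equiv.ofBijective f ⟨?_, ?_⟩)).symm
  · rintro ⟨d, w, hw⟩ ⟨d', w', hw'⟩ h
    change act (d : A) w = act (d' : A) w' at h
    set e : A := (d' : A)⁻¹ * d with he
    have hew : act e w = w' := by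
      rw [he, map_mul, Equiv.Perm.mul_apply, h, ← Equiv.Perm.mul_apply, ← map_mul, inv_mul_cancel,
        map_one, Equiv.Perm.one_apply]
    have hem : e ∈ moving σ p := mul_mem (inv_mem d'.2) d.2
    have hdev : act (dev σ e) w = w := by
      have h1 : act (σ e) w = act e w := by
        have h2 := hcompat e w
        rw [hw, hew, hw'] at h2
        rw [← h2, hew]
      rw [dev_apply, div_eq_inv_mul, map_mul, Equiv.Perm.mul_apply, h1, ← Equiv.Perm.mul_apply,
        ← map_mul, inv_mul_cancel, map_one, Equiv.Perm.one_apply]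
    have hdm : dev σ e ∈ moving σ p := Subgroup.mem_map.2 ⟨e, by
      rw [MonoidHom.mem_ker, powMonoidHom_apply]; exact moving_pow hem, rfl⟩
    have hd1 : dev σ e = 1 := by
      refine eq_one_of_mem_moving hp hσ hdm ?_
      by_contra hne
      exact hfree _ hne w hdev
    have he1 : e = 1 := eq_one_of_mem_moving hp hσ hem (by rw [sigma_eq σ, hd1, mul_one])
    rw [he1, map_one, Equiv.Perm.one_apply] at hew
    have hdd : d = d' := Subtype.ext ((inv_mul_eq_one.1 he1).symm)
    subst hdd hew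
    rfl
  · intro y
    obtain ⟨a, ha⟩ := horb y
    obtain ⟨v, hv⟩ : ∃ v, ordProj[p] (Nat.card A) = p ^ v := ⟨_, rfl⟩
    have hA : Nat.card A = p ^ v * m := by rw [← hv, Nat.ordProj_mul_ordCompl_eq_self]
    have hcop : Nat.Coprime m (p ^ v) :=
      ((Nat.coprime_ordCompl hp (Nat.card_pos (α := A)).ne').symm).pow_right v
    have hbez : (1 : ℤ) = m * Nat.gcdA m (p ^ v) + (p ^ v : ℕ) * Nat.gcdB m (p ^ v) := by
      have h1 := Nat.gcd_eq_gcd_ab m (p ^ v)
      rw [hcop] at h1
      exact_mod_cast h1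
    set a₁ := a ^ ((m : ℤ) * Nat.gcdA m (p ^ v)) with ha₁
    set a₂ := a ^ (((p ^ v : ℕ) : ℤ) * Nat.gcdB m (p ^ v)) with ha₂
    have hprod : a = a₂ * a₁ := by
      rw [ha₁, ha₂, ← zpow_add, add_comm, ← hbez, zpow_one]
    have hcard : (a : A) ^ (Nat.card A : ℤ) = 1 := by rw [zpow_natCast, pow_card_eq_one']
    have h1 : a₁ ^ p ^ v = 1 := by
      rw [← zpow_natCast a₁, ha₁, ← zpow_mul,
        show (m : ℤ) * Nat.gcdA m (p ^ v) * ((p ^ v : ℕ) : ℤ) =
          (Nat.card A : ℤ) * Nat.gcdA m (p ^ v) by rw [hA]; push_cast; ring,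
        zpow_mul, hcard, one_zpow]
    have h2 : a₂ ^ m = 1 := by
      rw [← zpow_natCast a₂, ha₂, ← zpow_mul,
        show ((p ^ v : ℕ) : ℤ) * Nat.gcdB m (p ^ v) * (m : ℤ) =
          (Nat.card A : ℤ) * Nat.gcdB m (p ^ v) by rw [hA]; push_cast; ring,
        zpow_mul, hcard, one_zpow]
    have hy : s y = act a₂ y := by
      rw [ha, hprod, map_mul, Equiv.Perm.mul_apply, hidx y a₁ v h1]
    -- split `a₂` as a fixed element times a moved one
    have hd0 : dev σ a₂ ∈ moving σ p := Subgroup.mem_map.2 ⟨a₂, by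
      rw [MonoidHom.mem_ker, powMonoidHom_apply]; exact h2, rfl⟩
    obtain ⟨d, hd, hde⟩ := exists_dev_eq hp hσ hd0
    obtain ⟨b, hb, hbe⟩ := exists_dev_eq hp hσ (inv_mem hd)
    set c := a₂ / d with hc
    have hcfix : σ c = c := by
      rw [sigma_eq σ c, hc, map_div, hde, div_self', mul_one]
    set z := act b y with hz
    have hsz : s z = act c z := by
      rw [hz, hcompat, hy, ← Equiv.Perm.mul_apply, ← map_mul, ← Equiv.Perm.mul_apply, ← map_mul,
        sigma_eq σ b, hbe, hc, div_eq_mul_inv]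
      congr 2
      rw [mul_comm (a₂ * d⁻¹) b, mul_assoc, mul_comm d⁻¹]
    have hcm : c ^ m = 1 := by rw [hc, div_pow, h2, moving_pow hd, div_one]
    have hfixz : s z = z := by
      have h3 : act (c ^ p ^ i) z = z := by
        rw [← act_iterate act s hcompat hcfix hsz, hs]
      have h4 : (p ^ i).Coprime (orderOf c) :=
        Nat.Coprime.coprime_dvd_right (orderOf_dvd_of_pow_eq_one hcm)
          ((Nat.coprime_ordCompl hp (Nat.card_pos (α := A)).ne').pow_left i)
      obtain ⟨k, hk⟩ := exists_pow_eq_self_of_coprime (x := c) h4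
      have h5 : ∀ k : ℕ, act ((c ^ p ^ i) ^ k) z = z := by
        intro k
        induction k with
        | zero => simp
        | succ k ih => rw [pow_succ, map_mul, Equiv.Perm.mul_apply, h3, ih]
      rw [hsz, ← hk, h5]
    refine ⟨⟨⟨b⁻¹, inv_mem hb⟩, z, hfixz⟩, ?_⟩
    change act b⁻¹ z = y
    rw [hz, ← Equiv.Perm.mul_apply, ← map_mul, inv_mul_cancel, map_one, Equiv.Perm.one_apply]

/-- The arithmetic behind two such counts. -/
theorem exponent_eq {u D n z a b : ℕ} (hu : 2 ≤ u) (ha : 1 ≤ a) (hb : 1 ≤ b) (hD : 2 ≤ D)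
    (hn : u ^ n - 1 = D * (u ^ a - 1)) (hz : u ^ z - 1 = D * (u ^ b - 1)) : n = z := by
  have key : ∀ {n a : ℕ}, 1 ≤ a → u ^ n - 1 = D * (u ^ a - 1) →
      a < n ∧ u ^ (n - a) ≤ D ∧ D < u ^ (n - a + 1) := by
    intro n a ha h
    have h1 : 2 ≤ u ^ a := le_trans hu (Nat.le_self_pow (by omega) u)
    have hlt : u ^ a < u ^ n := by
      have : 2 * (u ^ a - 1) ≤ D * (u ^ a - 1) := Nat.mul_le_mul_right _ hD
      omega
    have han := (Nat.pow_lt_pow_iff_right (by omega)).1 hlt
    have e : u ^ n = u ^ (n - a) * u ^ a := by rw [← pow_add]; congr 1; omega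
    have e' : u ^ (n - a + 1) = u ^ (n - a) * u := pow_succ ..
    refine ⟨han, ?_, ?_⟩
    · by_contra hc
      have h2 : (D + 1) * u ^ a ≤ u ^ (n - a) * u ^ a := Nat.mul_le_mul_right _ (by omega)
      rw [← e, add_mul, one_mul] at h2
      have h3 : D * u ^ a = D * (u ^ a - 1) + D := by
        conv_lhs => rw [show u ^ a = (u ^ a - 1) + 1 by omega]
        ring
      omega
    · by_contra hc
      have h2 : u ^ (n - a) * u * (u ^ a - 1) ≤ D * (u ^ a - 1) :=
        Nat.mul_le_mul_right _ (by omega)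
      have h4 : u ^ a ≤ u * (u ^ a - 1) := by
        have : 2 * (u ^ a - 1) ≤ u * (u ^ a - 1) := Nat.mul_le_mul_right _ hu
        omega
      have h5 : u ^ (n - a) * u ^ a ≤ u ^ (n - a) * (u * (u ^ a - 1)) := Nat.mul_le_mul_left _ h4
      rw [mul_assoc] at h2
      rw [← e] at h5
      omega
  obtain ⟨han, hl, hh⟩ := key ha hn
  obtain ⟨hbz, hl', hh'⟩ := key hb hz
  have hd : n - a = z - b := by
    have h1 : n - a < z - b + 1 := (Nat.pow_lt_pow_iff_right (by omega)).1 (hl.trans_lt hh')
    have h2 : z - b < n - a + 1 := (Nat.pow_lt_pow_iff_right (by omega)).1 (hl'.trans_lt hh)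
    omega
  by_contra hne
  have hab : a ≠ b := fun h => hne (by omega)
  have hen : u ^ n = u ^ (n - a) * u ^ a := by rw [← pow_add]; congr 1; omega
  have hez : u ^ z = u ^ (n - a) * u ^ b := by rw [← pow_add]; congr 1; omega
  have h1a : 2 ≤ u ^ a := le_trans hu (Nat.le_self_pow (by omega) u)
  have h1b : 2 ≤ u ^ b := le_trans hu (Nat.le_self_pow (by omega) u)
  have hD0 : u ^ (n - a) = D := by
    have i1 : ((u ^ n : ℕ) : ℤ) - 1 = D * (((u ^ a : ℕ) : ℤ) - 1) := by
      have := congrArg (fun x : ℕ => (x : ℤ)) hn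
      simp only [Nat.cast_mul] at this
      rw [Nat.cast_sub (Nat.one_le_pow _ _ (by omega)), Nat.cast_sub (by omega)] at this
      simpa using this
    have i2 : ((u ^ z : ℕ) : ℤ) - 1 = D * (((u ^ b : ℕ) : ℤ) - 1) := by
      have := congrArg (fun x : ℕ => (x : ℤ)) hz
      simp only [Nat.cast_mul] at this
      rw [Nat.cast_sub (Nat.one_le_pow _ _ (by omega)), Nat.cast_sub (by omega)] at this
      simpa using this
    rw [hen, Nat.cast_mul] at i1
    rw [hez, Nat.cast_mul] at i2
    have i3 : (((u ^ (n - a) : ℕ) : ℤ) - D) * (((u ^ a : ℕ) : ℤ) - ((u ^ b : ℕ) : ℤ)) = 0 := by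
      linear_combination i1 - i2
    rcases mul_eq_zero.1 i3 with h | h
    · omega
    · exact absurd (Nat.pow_right_injective hu (by omega : u ^ a = u ^ b)) hab
  rw [hen, hD0, Nat.mul_sub, mul_one] at hn
  have : D * 2 ≤ D * u ^ a := Nat.mul_le_mul_left _ h1a
  omega

end Count

section Uniform

set_option linter.unusedSectionVars false

variable {A X : Type*} [CommGroup A] [Finite A] [CommGroup X] [Finite X] (ρ : A →* MulAut X)

theorem comm_act (a b : A) (x : X) : ρ a (ρ b x) = ρ b (ρ a x) := by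
  rw [← MulAut.mul_apply, ← MulAut.mul_apply, ← map_mul, ← map_mul, mul_comm]

theorem act_pow_fix {a : A} {x : X} (h : ρ a x = x) (k : ℕ) : ρ (a ^ k) x = x := by
  induction k with
  | zero => simp
  | succ k ih => rw [pow_succ, map_mul, MulAut.mul_apply, h, ih]

variable {ρ} (hanti : ∀ v w : X, v ≠ 1 → w ≠ 1 → (∀ a, ρ a v = v → ρ a w = w) →
  ∀ a, ρ a w = w → ρ a v = v)
include hanti

/-- An element of order prime to `u` fixing one element of order `u` fixes them all. -/
theorem fix_all_of_coprime {u : ℕ} (hu : u.Prime) {h : A} (hh : (orderOf h).Coprime u) {v w : X}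
    (hv1 : v ≠ 1) (hv : v ^ u = 1) (hw : w ^ u = 1) (hhv : ρ h v = v) : ρ h w = w := by
  by_contra hhw
  obtain ⟨c, -, hc⟩ := Nat.exists_mul_mod_eq_one_of_coprime hh hu.one_lt
  set o := orderOf h with ho
  have hpow : ∀ {x : X}, x ^ u = 1 → x ^ (o * c) = x := fun {x} hx => by
    rw [← Nat.mod_add_div (o * c) u, pow_add, pow_mul, hx, one_pow, hc, mul_one, pow_one]
  let e : X → X := fun x => (∏ j ∈ Finset.range o, ρ (h ^ j) x) ^ c
  have hemul : ∀ x y, e (x * y) = e x * e y := fun x y => by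
    simp only [e, map_mul, Finset.prod_mul_distrib, mul_pow]
  have hea : ∀ a x, e (ρ a x) = ρ a (e x) := fun a x => by
    simp only [e, map_pow (ρ a), map_prod (ρ a)]
    congr 1
    exact Finset.prod_congr rfl fun j _ => comm_act ρ _ a x
  have hefix : ∀ x, x ^ u = 1 → ρ h x = x → e x = x := fun x hx hhx => by
    show (∏ j ∈ Finset.range o, ρ (h ^ j) x) ^ c = x
    rw [Finset.prod_congr rfl fun j _ => act_pow_fix ρ hhx j, Finset.prod_const, Finset.card_range,
      ← pow_mul, hpow hx]
  have heh : ∀ x, ρ h (e x) = e x := fun x => by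
    show ρ h ((∏ j ∈ Finset.range o, ρ (h ^ j) x) ^ c) = _
    rw [map_pow, map_prod]
    congr 1
    have h1 : ∀ j, ρ h (ρ (h ^ j) x) = ρ (h ^ (j + 1)) x := fun j => by
      rw [pow_succ', map_mul, MulAut.mul_apply]
    rw [Finset.prod_congr rfl fun j _ => h1 j]
    have h2 := Finset.prod_range_succ (fun j => ρ (h ^ j) x) o
    rw [Finset.prod_range_succ' (fun j => ρ (h ^ j) x) o, ho, pow_orderOf_eq_one, ← ho,
      pow_zero] at h2
    exact mul_right_cancel h2
  have heu : ∀ x, x ^ u = 1 → (e x) ^ u = 1 := fun x hx => by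
    show ((∏ j ∈ Finset.range o, ρ (h ^ j) x) ^ c) ^ u = 1
    rw [← pow_mul, mul_comm, pow_mul, ← Finset.prod_pow, Finset.prod_eq_one fun j _ => by
      rw [← map_pow, hx, map_one], one_pow]
  set w₂ := w / e w with hw₂
  have hw₂1 : w₂ ≠ 1 := fun h0 => hhw (by rw [div_eq_one.1 h0]; exact heh w)
  have hw1 : w ≠ 1 := fun h0 => hhw (by rw [h0, map_one])
  have hew₂ : e w₂ = 1 := by
    have h1 := hemul w₂ (e w)
    rw [hw₂, div_mul_cancel, hefix (e w) (heu w hw) (heh w)] at h1
    exact mul_eq_right.1 h1.symm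
  have hev : e v = v := hefix v hv hhv
  have hwz : ∀ a, ρ a w = w → ρ a w₂ = w₂ := fun a ha => by rw [hw₂, map_div, ← hea, ha]
  set z := v * w₂ with hz
  have hez : e z = v := by rw [hz, hemul, hev, hew₂, mul_one]
  have hz1 : z ≠ 1 := fun h0 => hv1 (by
    rw [← hez, h0]; exact hefix 1 (one_pow u) (map_one _))
  have hzv : ∀ a, ρ a z = z → ρ a v = v := fun a ha => by rw [← hez, ← hea, ha]
  have hzw : ∀ a, ρ a z = z → ρ a w₂ = w₂ := fun a ha => by
    have h1 := ha
    rw [hz, map_mul, hzv a ha] at h1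
    exact mul_left_cancel h1
  exact hhw (hanti w w₂ hw1 hw₂1 hwz h (hzw h (hanti z v hz1 hv1 hzv h hhv)))

/-- All non-trivial elements have the same stabiliser. -/
theorem stab_uniform : ∀ v w : X, v ≠ 1 → w ≠ 1 → ∀ a, ρ a v = v → ρ a w = w := by
  classical
  -- it suffices to treat elements of prime order
  suffices hprime : ∀ v w : X, (orderOf v).Prime → (orderOf w).Prime →
      ∀ a, ρ a v = v → ρ a w = w by
    intro v w hv hw a ha
    have hex : ∀ x : X, x ≠ 1 → ∃ k, (orderOf (x ^ k)).Prime ∧ x ^ k ≠ 1 := fun x hx => by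
      have hn : orderOf x ≠ 1 := fun h => hx (orderOf_eq_one_iff.1 h)
      refine ⟨orderOf x / (orderOf x).minFac, ?_, ?_⟩
      · rw [orderOf_pow_orderOf_div (orderOf_pos x).ne' (Nat.minFac_dvd _)]
        exact Nat.minFac_prime hn
      · intro h
        have := orderOf_pow_orderOf_div (orderOf_pos x).ne' (Nat.minFac_dvd (orderOf x))
        rw [h, orderOf_one] at this
        exact (Nat.minFac_prime hn).ne_one this.symm
    obtain ⟨k, hk, hk1⟩ := hex v hv
    obtain ⟨l, hl, hl1⟩ := hex w hw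
    have h1 : ρ a (v ^ k) = v ^ k := by rw [map_pow, ha]
    exact hanti w (w ^ l) hw hl1 (fun b hb => by rw [map_pow, hb]) a
      (hprime _ _ hk hl a h1)
  intro v w hv hw a ha
  have hv1 : v ≠ 1 := fun h => hv.ne_one (by rw [h, orderOf_one])
  have hw1 : w ≠ 1 := fun h => hw.ne_one (by rw [h, orderOf_one])
  rcases eq_or_ne (orderOf v) (orderOf w) with hvw | hvw
  · obtain ⟨u, hu⟩ : ∃ u, orderOf v = u := ⟨_, rfl⟩
    rw [hu] at hvw hv
    subst hvw
    have hvu : v ^ orderOf w = 1 := hu ▸ pow_orderOf_eq_one v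
    have hwu : w ^ orderOf w = 1 := pow_orderOf_eq_one w
    set u := orderOf w with hu'
    haveI : Fact u.Prime := ⟨hv⟩
    -- an element fixed by every `u`-element
    let U : Subgroup A := CommGroup.primaryComponent A u
    let V : Subgroup X := (powMonoidHom u).ker
    letI : MulAction U V :=
      { smul := fun g x => ⟨ρ (g : A) (x : X), by
          rw [MonoidHom.mem_ker, powMonoidHom_apply, ← map_pow]
          have hx := x.2
          rw [MonoidHom.mem_ker, powMonoidHom_apply] at hx
          rw [hx, map_one]⟩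
        one_smul := fun x => Subtype.ext (by show ρ ((1 : U) : A) (x : X) = x; simp)
        mul_smul := fun g h x => Subtype.ext (by
          show ρ ((g * h : U) : A) (x : X) = ρ g (ρ h x)
          simp [map_mul]) }
    have hU : IsPGroup u U := CommGroup.primaryComponent.isPGroup
    have hdvd : u ∣ Nat.card V := by
      have hmem : w ∈ V := by rw [MonoidHom.mem_ker, powMonoidHom_apply, hwu]
      have h1 := orderOf_dvd_natCard (⟨w, hmem⟩ : V)
      rwa [Subgroup.orderOf_mk] at h1
    obtain ⟨v₀, hv₀, hne⟩ := hU.exists_fixed_point_of_prime_dvd_card_of_fixed_point V hdvd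
      (a := 1) (fun g => Subtype.ext (map_one (ρ (g : A))))
    have hv₀1 : (v₀ : X) ≠ 1 := fun h => hne (Subtype.ext h.symm)
    have hv₀u : (v₀ : X) ^ u = 1 := by
      have := v₀.2
      rwa [MonoidHom.mem_ker, powMonoidHom_apply] at this
    -- every element fixing `x` fixes `v₀`
    have hall : ∀ x : X, x ≠ 1 → x ^ u = 1 → ∀ b, ρ b x = x → ρ b v₀ = v₀ := by
      intro x hx hxu b hb
      obtain ⟨e, he⟩ : ∃ e, ordProj[u] (orderOf b) = u ^ e := ⟨_, rfl⟩
      set b' := b ^ u ^ e with hb'
      have hord : (orderOf b').Coprime u := by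
        rw [hb', ← he, orderOf_pow' _ (by rw [he]; exact pow_ne_zero _ hv.ne_zero),
          Nat.gcd_eq_right (Nat.ordProj_dvd _ _)]
        exact ((Nat.coprime_ordCompl hv (orderOf_pos b).ne')).symm
      have h1 : ρ b' v₀ = v₀ := fix_all_of_coprime hanti hv hord hx hxu hv₀u (act_pow_fix ρ hb _)
      set b'' := b ^ ordCompl[u] (orderOf b) with hb''
      have h2 : ρ b'' v₀ = v₀ := by
        have hmem : b'' ∈ U := by
          refine CommGroup.mem_primaryComponent.2 ⟨e, ?_⟩
          rw [hb'', ← pow_mul, ← he, mul_comm, Nat.ordProj_mul_ordCompl_eq_self, pow_orderOf_eq_one]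
        exact congrArg Subtype.val (hv₀ ⟨b'', hmem⟩)
      have hcop : Nat.Coprime (u ^ e) (ordCompl[u] (orderOf b)) :=
        (Nat.coprime_ordCompl hv (orderOf_pos b).ne').pow_left e
      let S : Subgroup A :=
        { carrier := {b | ρ b (v₀ : X) = v₀}
          one_mem' := by simp
          mul_mem' := fun {p q} hp hq => by
            show ρ (p * q) (v₀ : X) = v₀
            rw [map_mul, MulAut.mul_apply, Set.mem_ofPred.1 hq, Set.mem_ofPred.1 hp]
          inv_mem' := fun {p} hp => by
            show ρ p⁻¹ (v₀ : X) = v₀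
            conv_lhs => rw [← Set.mem_ofPred.1 hp]
            rw [← MulAut.mul_apply, ← map_mul, inv_mul_cancel, map_one, MulAut.one_apply] }
      have hbz : (1 : ℤ) = (u ^ e : ℕ) * Nat.gcdA (u ^ e) (ordCompl[u] (orderOf b)) +
          (ordCompl[u] (orderOf b) : ℕ) * Nat.gcdB (u ^ e) (ordCompl[u] (orderOf b)) := by
        have h3 := Nat.gcd_eq_gcd_ab (u ^ e) (ordCompl[u] (orderOf b))
        rw [hcop] at h3
        exact_mod_cast h3
      show b ∈ S
      rw [← zpow_one b, hbz, zpow_add, zpow_mul, zpow_natCast, zpow_mul, zpow_natCast]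
      exact S.mul_mem (S.zpow_mem h1 _) (S.zpow_mem h2 _)
    exact hanti w v₀ hw1 hv₀1 (hall w hw1 hwu) a (hall v hv1 hvu a ha)
  · -- different primes: the product has the smaller stabiliser
    have hc : (orderOf v).Coprime (orderOf w) := (Nat.coprime_primes hv hw).2 hvw
    have hpart : ∀ {x y : X}, (orderOf x).Coprime (orderOf y) → ∀ b, ρ b (x * y) = x * y →
        ρ b x = x := by
      intro x y hxy b hb
      obtain ⟨k, hk⟩ := exists_pow_eq_self_of_coprime (x := x) hxy.symm
      have h1 : ((x * y) ^ orderOf y) ^ k = x := by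
        rw [mul_pow, pow_orderOf_eq_one, mul_one, hk]
      rw [← h1, map_pow, map_pow, hb]
    have hz1 : v * w ≠ 1 := fun h => by
      rw [eq_inv_of_mul_eq_one_left h, orderOf_inv] at hvw
      exact hvw rfl
    have h1 := hanti (v * w) v hz1 hv1 (fun b hb => hpart hc b hb) a ha
    exact hpart hc.symm a (by rw [mul_comm]; exact h1)

end Uniform

end Cfsg.Agent.CharGraph.NoDiv
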