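import Cfsg.Agent.CharGraph.NoDiv.Twist
import Cfsg.Agent.CharGraph.NoDiv.Count

/-!
# The action on linear characters of normal subgroups

The setting of a solvable group `K` with an abelian complement of its derived subgroup, and the
action of `K / K'` on the invariant linear characters of a normal subgroup.
-/

namespace Cfsg.Agent.CharGraph.NoDiv

set_option autoImplicit false
set_option linter.unusedSectionVars false
set_option linter.style.haveILetI false

open Cfsg
open scoped ComplexConjugate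
open Cfsg.Agent.Char (irr_charDegree_spec)

universe u

variable {K : Type u} [Group K] [Finite K]

/-- The data of the abelian case. -/
structure Setting (K : Type u) [Group K] where
  σ : MulAut K
  p : ℕ
  i : ℕ
  r : ℕ
  y : K
  hp : p.Prime
  hr : r.Prime
  hrp : r ≠ p
  hσp : σ ^ p ^ i = 1
  fixes : FixesNonlinear σ
  noDiv : NoDivides K
  not_dvd : ∀ ψ : IrrCharacter K, charDegree (ψ : K → ℂ) ≠ 1 → ¬ p ∣ charDegree (ψ : K → ℂ)
  hyr : y ^ r = 1
  hy : σ y * y⁻¹ ∉ commutator K
  hcop : ¬ r ∣ Nat.card (commutator K)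

variable (S : Setting K)

theorem Setting.centralizer_trivial {n : K} (hn : n ∈ commutator K) (hc : Commute n S.y) : n = 1 := by
  obtain ⟨c, hc'⟩ := isConj_iff.1 (isConj_of_moved S.fixes S.hy hn)
  have h : (n * S.y) ^ S.r = 1 := by rw [← hc', conj_pow, S.hyr]; simp
  rw [hc.mul_pow, S.hyr, mul_one] at h
  by_contra hne
  refine S.hcop ?_
  have h1 : orderOf n = S.r := by
    rcases S.hr.eq_one_or_self_of_dvd _ (orderOf_dvd_of_pow_eq_one h) with h' | h'
    · exact absurd (orderOf_eq_one_iff.1 h') hne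
    · exact h'
  rw [← h1, ← Subgroup.orderOf_mk n hn]
  exact orderOf_dvd_natCard _

/-- The abelian complement. -/
def Setting.A : Subgroup K := Subgroup.centralizer ({S.y} : Set K)

theorem Setting.mem_A {a : K} : a ∈ S.A ↔ Commute a S.y := Subgroup.mem_centralizer_singleton_iff

theorem Setting.eq_one_of_mem {a : K} (ha : a ∈ S.A) (hn : a ∈ commutator K) : a = 1 :=
  S.centralizer_trivial hn (S.mem_A.1 ha)

theorem Setting.exists_rep (k : K) : ∃ a ∈ S.A, k * a⁻¹ ∈ commutator K := by
  let f : S.A → K ⧸ commutator K := fun a => QuotientGroup.mk (a : K)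
  have hinj : Function.Injective f := fun a b h => by
    have h1 : (a : K)⁻¹ * b ∈ commutator K := QuotientGroup.eq.1 h
    exact Subtype.ext (inv_mul_eq_one.1 (S.eq_one_of_mem (mul_mem (inv_mem a.2) b.2) h1))
  have hbij := hinj.bijective_of_nat_card_le (by
    rw [Setting.A, card_centralizer_of_moved S.fixes S.hy, Subgroup.index])
  obtain ⟨a, ha⟩ := hbij.2 (QuotientGroup.mk k)
  refine ⟨a, a.2, ?_⟩
  have h1 : (a : K)⁻¹ * k ∈ commutator K := QuotientGroup.eq.1 ha
  have h2 := (inferInstance : (commutator K).Normal).conj_mem _ h1 a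
  rwa [mul_inv_cancel_left] at h2

theorem Setting.A_comm {a b : K} (ha : a ∈ S.A) (hb : b ∈ S.A) : a * b = b * a := by
  refine inv_mul_eq_one.1 (S.eq_one_of_mem
    (mul_mem (inv_mem (mul_mem ha hb)) (mul_mem hb ha)) ?_)
  rw [show (a * b)⁻¹ * (b * a) = b⁻¹ * a⁻¹ * (b⁻¹)⁻¹ * (a⁻¹)⁻¹ by group]
  exact Subgroup.commutator_mem_commutator (Subgroup.mem_top _) (Subgroup.mem_top _)

theorem Setting.sigma_mem {n : K} (hn : n ∈ commutator K) : S.σ n ∈ commutator K := by
  have h : n ∈ ⁅(⊤ : Subgroup K), (⊤ : Subgroup K)⁆ := commutator_def K ▸ hn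
  have h2 : (⁅(⊤ : Subgroup K), (⊤ : Subgroup K)⁆).map S.σ.toMonoidHom ≤ commutator K := by
    rw [Subgroup.map_commutator, commutator_def]
    exact Subgroup.commutator_mono le_top le_top
  exact h2 ⟨n, h, rfl⟩

/-- A moved element of the complement centralises nothing in the derived subgroup. -/
theorem Setting.moved_free {a : K} (ha : a ∈ S.A) (hm : S.σ a * a⁻¹ ∉ commutator K) {n : K}
    (hn : n ∈ commutator K) (hc : Commute n a) : n = 1 := by
  refine S.eq_one_of_mem ?_ hn
  have hle : S.A ≤ Subgroup.centralizer ({a} : Set K) := fun b hb =>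
    Subgroup.mem_centralizer_singleton_iff.2 (S.A_comm hb ha)
  have heq : S.A = Subgroup.centralizer ({a} : Set K) := Subgroup.eq_of_le_of_card_ge hle (by
    rw [Setting.A, card_centralizer_of_moved S.fixes S.hy, card_centralizer_of_moved S.fixes hm])
  rw [heq]
  exact Subgroup.mem_centralizer_singleton_iff.2 hc

/-- The conjugate of a linear character of a normal subgroup. -/
def dualAct (X : Subgroup K) [X.Normal] : K →* MulAut (X →* ℂˣ) where
  toFun k :=
    { toFun := fun l => l.comp (MulAut.conjNormal k⁻¹ : MulAut X).toMonoidHom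
      invFun := fun l => l.comp (MulAut.conjNormal k : MulAut X).toMonoidHom
      left_inv := fun l => MonoidHom.ext fun x => congrArg l (Subtype.ext (by simp [mul_assoc]))
      right_inv := fun l => MonoidHom.ext fun x => congrArg l (Subtype.ext (by simp [mul_assoc]))
      map_mul' := fun _ _ => rfl }
  map_one' := MulEquiv.ext fun l => MonoidHom.ext fun x => congrArg l (Subtype.ext (by simp))
  map_mul' a b := MulEquiv.ext fun l => MonoidHom.ext fun x =>
    congrArg l (Subtype.ext (by simp [mul_assoc]))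

theorem dualAct_apply (X : Subgroup K) [X.Normal] (k : K) (l : X →* ℂˣ) (x : X) :
    dualAct X k l x = l ⟨k⁻¹ * x * k, by
      simpa using (inferInstance : X.Normal).conj_mem x x.2 k⁻¹⟩ :=
  congrArg l (Subtype.ext (by simp))

theorem dualAct_eq_iff (X : Subgroup K) [X.Normal] (k : K) (l : X →* ℂˣ) :
    dualAct X k l = l ↔ k ∈ CharExt.inertia X (CharExt.homVal l) := by
  constructor
  · intro h
    refine CharExt.mem_inertia.2 (funext fun x => ?_)
    have h1 := DFunLike.congr_fun h ⟨k * x * k⁻¹, (inferInstance : X.Normal).conj_mem x x.2 k⟩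
    rw [CharInd.conjChar_apply]
    show (l _ : ℂ) = l x
    rw [← h1, dualAct_apply]
    exact congrArg (fun t => (l t : ℂ)) (Subtype.ext (by simp [mul_assoc]))
  · intro h
    refine MonoidHom.ext fun x => Units.ext ?_
    have h1 := congrFun (CharExt.mem_inertia.1 (inv_mem h)) x
    rw [CharInd.conjChar_apply] at h1
    rw [dualAct_apply]
    show (l _ : ℂ) = l x
    rw [← show (l ⟨k⁻¹ * x * k⁻¹⁻¹, _⟩ : ℂ) = l x from h1]
    exact congrArg (fun t => (l t : ℂ)) (Subtype.ext (by simp))

/-- The linear characters invariant under the derived subgroup. -/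
def invDual (X : Subgroup K) [X.Normal] : Subgroup (X →* ℂˣ) where
  carrier := {l | ∀ n ∈ commutator K, dualAct X n l = l}
  one_mem' := fun n _ => map_one _
  mul_mem' := fun {a b} ha hb n hn => by rw [map_mul, ha n hn, hb n hn]
  inv_mem' := fun {a} ha n hn => by rw [map_inv, ha n hn]

theorem dualAct_mem {X : Subgroup K} [X.Normal] {l : X →* ℂˣ} (hl : l ∈ invDual X) (k : K) :
    dualAct X k l ∈ invDual X := fun n hn => by
  have h := hl (k⁻¹ * n * k) (by
    simpa using (inferInstance : (commutator K).Normal).conj_mem n hn k⁻¹)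
  have h' : dualAct X k⁻¹ (dualAct X n (dualAct X k l)) = l := by
    rw [map_mul, map_mul] at h
    exact h
  calc dualAct X n (dualAct X k l)
      = (dualAct X k * dualAct X k⁻¹) (dualAct X n (dualAct X k l)) := by
        rw [← map_mul, mul_inv_cancel, map_one, MulAut.one_apply]
    _ = dualAct X k l := congrArg (dualAct X k) h'

/-- The subtype on which the count is made. -/
def Pts (X : Subgroup K) [X.Normal] (u : ℕ) : Type u :=
  {l : X →* ℂˣ // l ∈ invDual X ∧ l ^ u = 1 ∧ l ≠ 1}

/-- The action of `K / K'`. -/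
noncomputable def ptsAct (X : Subgroup K) [X.Normal] (u : ℕ) :
    Abelianization K →* Equiv.Perm (Pts X u) :=
  QuotientGroup.lift (commutator K)
    { toFun := fun k =>
        (dualAct X k).toEquiv.subtypeEquiv (fun l => by
          constructor
          · rintro ⟨h1, h2, h3⟩
            exact ⟨dualAct_mem h1 k,
              show dualAct X k l ^ u = 1 by rw [← map_pow (dualAct X k), h2, map_one],
              show dualAct X k l ≠ 1 from fun h => h3 ((map_eq_one_iff _ (dualAct X k).injective).1 h)⟩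
          · rintro ⟨h1, h2, h3⟩
            refine ⟨?_, (map_eq_one_iff _ (dualAct X k).injective).1 ((map_pow (dualAct X k) l u).trans h2),
              fun h => h3 (by rw [h]; exact map_one (dualAct X k))⟩
            have := dualAct_mem h1 k⁻¹
            change dualAct X k⁻¹ (dualAct X k l) ∈ _ at this
            rwa [← MulAut.mul_apply, ← map_mul, inv_mul_cancel, map_one, MulAut.one_apply] at this)
      map_one' := Equiv.ext fun l => Subtype.ext (by show dualAct X 1 l.1 = l.1; rw [map_one]; rfl)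
      map_mul' := fun a b => Equiv.ext fun l => Subtype.ext (by
        show dualAct X (a * b) l.1 = dualAct X a (dualAct X b l.1); rw [map_mul]; rfl) }
    fun n hn => MonoidHom.mem_ker.2 (Equiv.ext fun l => Subtype.ext (l.2.1 n hn))

theorem ptsAct_apply (X : Subgroup K) [X.Normal] (u : ℕ) (k : K) (l : Pts X u) :
    (ptsAct X u (Abelianization.of k) l).1 = dualAct X k l.1 := rfl

theorem over_nonlinear {X : Subgroup K} [X.Normal] (hX : X ≤ commutator K) {l : X →* ℂˣ}
    (hl : l ≠ 1) [Fintype K] [Fintype X] :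
    ∃ ψ : IrrCharacter K, charDegree (ψ : K → ℂ) ≠ 1 ∧
      classInner (fun x : X => (ψ : K → ℂ) x) (CharExt.homVal l) ≠ 0 := by
  have hirr : IsIrrCharacter X (CharExt.homVal l) := Char.isIrrCharacter_monoidHom l
  have hind := CharInd.isCharacter_indFun X (Char.isCharacter_of_irr hirr)
  obtain ⟨ψ, e, he, hψ⟩ := Char.exists_irr_constituent hind (fun h => by
    have h1 := congrFun h 1
    rw [CharInd.indFun_one_apply, Pi.zero_apply] at h1
    simp [CharExt.homVal, Subgroup.index_ne_zero_of_finite] at h1)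
  have hc : classInner (fun x : X => (ψ : K → ℂ) x) (CharExt.homVal l) ≠ 0 := by
    rw [CharInd.classInner_indFun_left X _ (Char.irr_isClassFunction ψ.2),
      ← CharInd.classInner_swap (fun x : X => (ψ : K → ℂ) x) (CharExt.homVal l)] at hψ
    intro h0
    rw [h0, map_zero] at hψ
    exact he.ne' (Nat.cast_eq_zero.1 hψ.symm)
  refine ⟨ψ, fun hd => hc ?_, hc⟩
  have h1 : (fun x : X => (ψ : K → ℂ) x) = CharExt.homVal (1 : X →* ℂˣ) := funext fun x =>
    Char.linear_eq_one_of_mem_commutator (Char.isCharacter_of_irr ψ.2)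
      (by rw [(irr_charDegree_spec ψ.2).2, hd, Nat.cast_one]) (hX x.2)
  rw [h1]
  exact Char.classInner_irr_ne (Char.isIrrCharacter_monoidHom (1 : X →* ℂˣ)) hirr fun h =>
    hl (Char.monoidHom_coe_injective h.symm)

theorem Setting.orbit_data {X : Subgroup K} [X.Normal] (hX : X ≤ commutator K)
    (hσX : ∀ x ∈ X, S.σ x ∈ X) {l : X →* ℂˣ} (hl : l ≠ 1) :
    (∃ k : K, ∀ x : X, l ⟨S.σ x, hσX x x.2⟩ = dualAct X k l x) ∧
    ¬ S.p ∣ (CharExt.inertia X (CharExt.homVal l)).index := by
  classical
  letI := Fintype.ofFinite K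
  letI := Fintype.ofFinite X
  obtain ⟨ψ, hψ, hc⟩ := over_nonlinear hX hl
  have hirr : IsIrrCharacter X (CharExt.homVal l) := Char.isIrrCharacter_monoidHom l
  refine ⟨?_, fun h => S.not_dvd ψ hψ (h.trans (Palfy.index_dvd_degree X hirr ψ hc))⟩
  let e : X →* X := (S.σ.toMonoidHom.comp X.subtype).codRestrict X fun x => hσX x x.2
  have he : Function.Injective e := fun a b h =>
    Subtype.ext (S.σ.injective (congrArg Subtype.val h))
  let e' : X ≃* X := MulEquiv.ofBijective e ⟨he, Finite.surjective_of_injective he⟩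
  have hirr' : IsIrrCharacter X (CharExt.homVal (l.comp e)) := Char.isIrrCharacter_monoidHom _
  have hc' : classInner (fun x : X => (ψ : K → ℂ) x) (CharExt.homVal (l.comp e)) ≠ 0 := by
    have h0 : classInner (fun x : X => (ψ : K → ℂ) x) (CharExt.homVal (l.comp e)) =
        classInner (fun x : X => (ψ : K → ℂ) x) (CharExt.homVal l) := by
      simp only [classInner]
      congr 1
      refine Fintype.sum_equiv e'.toEquiv _ _ fun x => ?_
      show (ψ : K → ℂ) x * _ = (ψ : K → ℂ) (S.σ x) * _
      rw [S.fixes ψ hψ]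
      rfl
    rwa [h0]
  have hcl := CharInd.clifford X ψ.2 hirr hc
  obtain ⟨φ, hφ, hφc⟩ : ∃ φ ∈ CharInd.conjClass X (CharExt.homVal l),
      classInner φ (CharExt.homVal (l.comp e)) ≠ 0 := by
    by_contra hcon
    push Not at hcon
    rw [hcl, CharInd.classInner_smul_left, Char.classInner_sum_left,
      Finset.sum_eq_zero hcon, mul_zero] at hc'
    exact hc' rfl
  obtain ⟨x₀, rfl⟩ := (CharInd.mem_conjClass X).1 hφ
  have heq : CharInd.conjChar X x₀ (CharExt.homVal l) = CharExt.homVal (l.comp e) := by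
    by_contra hne
    exact hφc (Char.classInner_irr_ne (CharInd.conjChar_irr X x₀ hirr) hirr' hne)
  refine ⟨x₀⁻¹, fun x => Units.ext ?_⟩
  have h1 := congrFun heq x
  rw [dualAct_apply]
  refine Eq.trans (show (l ⟨S.σ x, _⟩ : ℂ) = CharExt.homVal (l.comp e) x from rfl) ?_
  rw [← h1, CharInd.conjChar_apply]
  exact congrArg (fun t => (l t : ℂ)) (Subtype.ext (by simp))

theorem Setting.free {X : Subgroup K} [X.Normal] (hX : X ≤ commutator K) {l : X →* ℂˣ}
    (hl : l ∈ invDual X) (hl1 : l ≠ 1) {k : K} (hk : S.σ k * k⁻¹ ∉ commutator K) :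
    dualAct X k l ≠ l := by
  intro hfix
  obtain ⟨a, ha, hka⟩ := S.exists_rep k
  set n := k * a⁻¹ with hn
  have hkn : k = n * a := by rw [hn, inv_mul_cancel_right]
  have hfa : dualAct X a l = l := by
    rw [hkn, map_mul, MulAut.mul_apply] at hfix
    exact (dualAct X n).injective (hfix.trans (hl n hka).symm)
  have hm : S.σ a * a⁻¹ ∉ commutator K := fun h => hk (by
    rw [hkn, map_mul, mul_inv_rev,
      show S.σ n * S.σ a * (a⁻¹ * n⁻¹) = S.σ n * (S.σ a * a⁻¹) * n⁻¹ by group]
    exact mul_mem (mul_mem (S.sigma_mem hka) h) (inv_mem hka))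
  let f : X → X := fun x => x⁻¹ * MulAut.conjNormal a⁻¹ x
  have hf : Function.Injective f := fun x x' h => by
    refine mul_inv_eq_one.1 (Subtype.ext (S.moved_free ha hm (hX (x * x'⁻¹).2) ?_))
    have h' := congrArg (fun t : X => (t : K)) h
    simp only [f, Subgroup.coe_mul, Subgroup.coe_inv, MulAut.conjNormal_apply, inv_inv] at h'
    show ((x * x'⁻¹ : X) : K) * a = a * ((x * x'⁻¹ : X) : K)
    push_cast
    calc (x : K) * (x' : K)⁻¹ * a
        = a * ((x : K) * (((x : K)⁻¹ * (a⁻¹ * x * a)) * (a⁻¹ * x' * a)⁻¹)) := by group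
      _ = a * ((x : K) * (((x' : K)⁻¹ * (a⁻¹ * x' * a)) * (a⁻¹ * x' * a)⁻¹)) := by rw [h']
      _ = _ := by group
  refine hl1 (MonoidHom.ext fun x => ?_)
  obtain ⟨x', rfl⟩ := Finite.surjective_of_injective hf x
  have h1 : l (MulAut.conjNormal a⁻¹ x') = l x' := DFunLike.congr_fun hfa x'
  show l (x'⁻¹ * _) = 1
  rw [map_mul, map_inv, h1, inv_mul_cancel]

theorem Setting.abCongr_ne_iff (k : K) :
    (MulEquiv.abelianizationCongr S.σ).symm (Abelianization.of k) ≠ Abelianization.of k ↔
      S.σ k * k⁻¹ ∉ commutator K := by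
  rw [Ne, MulEquiv.symm_apply_eq, abelianizationCongr_of, not_iff_not]
  rw [eq_comm (a := Abelianization.of k), ← mul_inv_eq_one, ← map_inv, ← map_mul]
  exact QuotientGroup.eq_one_iff _

/-- The automorphism used in the count. -/
noncomputable def Setting.τ : MulAut (Abelianization K) :=
  (MulEquiv.abelianizationCongr S.σ).symm

theorem Setting.tau_pow : S.τ ^ S.p ^ S.i = 1 := by
  have h : ∀ (n : ℕ) (k : K), (MulEquiv.abelianizationCongr S.σ ^ n : MulAut (Abelianization K))
      (Abelianization.of k) = Abelianization.of ((S.σ ^ n) k) := by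
    intro n
    induction n with
    | zero => simp
    | succ n ih =>
      intro k
      rw [pow_succ', pow_succ', MulAut.mul_apply, MulAut.mul_apply, ih, abelianizationCongr_of]
  have h1 : (MulEquiv.abelianizationCongr S.σ : MulAut (Abelianization K)) ^ S.p ^ S.i = 1 :=
    MulEquiv.ext fun a => by
      obtain ⟨k, rfl⟩ := QuotientGroup.mk_surjective a
      exact (h _ k).trans (by rw [S.hσp]; rfl)
  show ((MulEquiv.abelianizationCongr S.σ : MulAut (Abelianization K))⁻¹) ^ S.p ^ S.i = 1
  rw [inv_pow, h1, inv_one]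

/-- The number of points is a multiple of the common number of moving elements. -/
theorem Setting.card_pts {X : Subgroup K} [X.Normal] (hX : X ≤ commutator K)
    (hσX : ∀ x ∈ X, S.σ x ∈ X) (u : ℕ) :
    ∃ s : Pts X u → Pts X u, (∀ l x, (s l).1 x = l.1 ⟨S.σ x, hσX x x.2⟩) ∧
      Nat.card (Pts X u) = Nat.card (moving S.τ S.p) * Nat.card {l : Pts X u // s l = l} := by
  classical
  haveI := Char.monoidHom_complex_finite (G := ↥X)
  haveI : Finite (Pts X u) := Subtype.finite
  let e : X →* X := (S.σ.toMonoidHom.comp X.subtype).codRestrict X fun x => hσX x x.2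
  have he : Function.Surjective e := Finite.surjective_of_injective fun a b h =>
    Subtype.ext (S.σ.injective (congrArg Subtype.val h))
  have hmem : ∀ l : Pts X u, l.1.comp e ∈ invDual X ∧ (l.1.comp e) ^ u = 1 ∧ l.1.comp e ≠ 1 := by
    intro l
    refine ⟨fun n hn => MonoidHom.ext fun x => ?_, ?_, fun h => l.2.2.2 ?_⟩
    · have h1 := DFunLike.congr_fun (l.2.1 (S.σ n) (S.sigma_mem hn)) (e x)
      rw [MonoidHom.comp_apply, ← h1, dualAct_apply, dualAct_apply, MonoidHom.comp_apply]
      exact congrArg l.1 (Subtype.ext (by simp [e]))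
    · exact MonoidHom.ext fun x => DFunLike.congr_fun l.2.2.1 (e x)
    · exact MonoidHom.ext fun x => by
        obtain ⟨x', rfl⟩ := he x
        exact DFunLike.congr_fun h x'
  let s : Pts X u → Pts X u := fun l => ⟨l.1.comp e, hmem l⟩
  have hs : ∀ l x, (s l).1 x = l.1 ⟨S.σ x, hσX x x.2⟩ := fun l x => rfl
  refine ⟨s, hs, card_eq_moving_mul (ptsAct X u) s S.hp S.tau_pow ?_ ?_ ?_ ?_ ?_⟩
  · intro l
    have h : ∀ (n : ℕ) (x : X), ∃ hx : (S.σ ^ n) (x : K) ∈ X,
        (s^[n] l).1 x = l.1 ⟨(S.σ ^ n) x, hx⟩ := by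
      intro n
      induction n with
      | zero => exact fun x => ⟨x.2, rfl⟩
      | succ n ih =>
        intro x
        rw [Function.iterate_succ_apply', hs]
        obtain ⟨hx, hx'⟩ := ih ⟨S.σ x, hσX x x.2⟩
        exact ⟨by rw [pow_succ, MulAut.mul_apply]; exact hx,
          hx'.trans (congrArg l.1 (Subtype.ext (by simp [pow_succ])))⟩
    refine Subtype.ext (MonoidHom.ext fun x => ?_)
    obtain ⟨hx, hx'⟩ := h (S.p ^ S.i) x
    rw [hx']
    refine congrArg l.1 (Subtype.ext ?_)
    show (S.σ ^ S.p ^ S.i) (x : K) = x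
    rw [S.hσp]
    rfl
  · intro a l
    obtain ⟨k, rfl⟩ := QuotientGroup.mk_surjective a
    obtain ⟨j, rfl⟩ : ∃ j, S.σ j = k := S.σ.surjective k
    have hτ : S.τ (Abelianization.of (S.σ j)) = Abelianization.of j := by
      show (MulEquiv.abelianizationCongr S.σ).symm _ = _
      rw [MulEquiv.symm_apply_eq, abelianizationCongr_of]
    show s (ptsAct X u (Abelianization.of (S.σ j)) l) =
      ptsAct X u (S.τ (Abelianization.of (S.σ j))) (s l)
    rw [hτ]
    refine Subtype.ext (MonoidHom.ext fun x => ?_)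
    rw [hs, ptsAct_apply, ptsAct_apply, dualAct_apply, dualAct_apply, hs]
    exact congrArg l.1 (Subtype.ext (by simp))
  · intro l
    obtain ⟨⟨k, hk⟩, -⟩ := S.orbit_data hX hσX l.2.2.2
    exact ⟨Abelianization.of k, Subtype.ext (MonoidHom.ext fun x => hk x)⟩
  · intro l a j ha
    obtain ⟨k, rfl⟩ := QuotientGroup.mk_surjective a
    obtain ⟨-, hidx⟩ := S.orbit_data hX hσX l.2.2.2
    set I := CharExt.inertia X (CharExt.homVal l.1) with hI
    have hNI : commutator K ≤ I := fun n hn => (dualAct_eq_iff X n l.1).1 (l.2.1 n hn)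
    haveI : I.Normal := Subgroup.Normal.of_commutator_le (G := K) hNI
    have h1 : k ^ S.p ^ j ∈ I := hNI ((QuotientGroup.eq_one_iff _).1 ha)
    have h2 : (QuotientGroup.mk k : K ⧸ I) = 1 := orderOf_eq_one_iff.1
      (Nat.eq_one_of_dvd_coprimes ((S.hp.coprime_iff_not_dvd.2 hidx).pow_left j)
        (orderOf_dvd_of_pow_eq_one (by
          rw [← QuotientGroup.mk_pow]; exact (QuotientGroup.eq_one_iff _).2 h1))
        (orderOf_dvd_natCard _))
    exact Subtype.ext ((dualAct_eq_iff X k l.1).2 ((QuotientGroup.eq_one_iff _).1 h2))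
  · intro a ha l hfix
    obtain ⟨k, rfl⟩ := QuotientGroup.mk_surjective a
    exact S.free hX l.2.1 l.2.2.2 ((S.abCongr_ne_iff k).1 ha) (congrArg Subtype.val hfix)

theorem Setting.two_le_card_moving : 2 ≤ Nat.card (moving S.τ S.p) := by
  haveI : Finite (Abelianization K) := inferInstanceAs (Finite (K ⧸ commutator K))
  set a := Abelianization.of S.y with ha
  have hne : dev S.τ a ≠ 1 := fun h => (S.abCongr_ne_iff S.y).2 S.hy (by
    rwa [dev_apply, div_eq_one] at h)
  have hmem : dev S.τ a ∈ moving S.τ S.p := by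
    refine Subgroup.mem_map.2 ⟨a, ?_, rfl⟩
    rw [MonoidHom.mem_ker, powMonoidHom_apply]
    have har : a ^ S.r = 1 := by rw [ha, ← map_pow, S.hyr, map_one]
    have ha1 : a ≠ 1 := fun h => hne (by rw [h, map_one])
    have hord : orderOf a = S.r :=
      (S.hr.eq_one_or_self_of_dvd _ (orderOf_dvd_of_pow_eq_one har)).resolve_left
        fun h => ha1 (orderOf_eq_one_iff.1 h)
    refine orderOf_dvd_iff_pow_eq_one.1 ?_
    rw [hord]
    have h1 : S.r ∣ ordProj[S.p] (Nat.card (Abelianization K)) *
        ordCompl[S.p] (Nat.card (Abelianization K)) := by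
      rw [Nat.ordProj_mul_ordCompl_eq_self, ← hord]; exact orderOf_dvd_natCard _
    exact (Nat.Coprime.pow_right _ ((Nat.coprime_primes S.hr S.hp).2 S.hrp)).dvd_of_dvd_mul_left h1
  rcases Nat.lt_or_ge (Nat.card (moving S.τ S.p)) 2 with h | h
  · have h1 : moving S.τ S.p = ⊥ := Subgroup.card_le_one_iff_eq_bot _ |>.1 (by omega)
    exact absurd (Subgroup.mem_bot.1 (h1 ▸ hmem)) hne
  · exact h

end Cfsg.Agent.CharGraph.NoDiv
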