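import Cfsg.Agent.CharGraph.NoDiv.Abelian

/-!
# The derived subgroup is abelian and the non-linear degrees are equal

If the derived subgroup `N` of `K` were non-abelian, some non-linear character of `N` would have its
inertia group inside the common inertia group of the linear characters of `N`.
-/

namespace Cfsg.Agent.CharGraph.NoDiv

set_option autoImplicit false
set_option linter.unusedSectionVars false
set_option linter.style.haveILetI false

open Cfsg
open scoped ComplexConjugate commutatorElement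
open Cfsg.Agent.Char (irr_charDegree_spec)

universe u

variable {K : Type u} [Group K] [Finite K]

/-- A group of `u`-power order fixes a non-trivial character of exponent `u`. -/
theorem exists_fixed_of_pow {X : Subgroup K} [X.Normal] {u : ℕ} [Fact u.Prime]
    (hdvd : u ∣ Nat.card (invTor X u)) {k : K} {e : ℕ} (hk : orderOf k = u ^ e) :
    ∃ l ∈ invTor X u, l ≠ 1 ∧ dualAct X k l = l := by
  haveI := Char.monoidHom_complex_finite (G := ↥X)
  letI : MulAction (Subgroup.zpowers k) (invTor X u) :=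
    { smul := fun g l => ⟨dualAct X (g : K) l, mem_invTor.2 ⟨dualAct_mem (mem_invTor.1 l.2).1 _, by
        rw [← map_pow (dualAct X (g : K)), (mem_invTor.1 l.2).2, map_one]⟩⟩
      one_smul := fun l => Subtype.ext (by show dualAct X (1 : K) (l : X →* ℂˣ) = l; rw [map_one]; rfl)
      mul_smul := fun g h l => Subtype.ext (by
        show dualAct X ((g : K) * h) (l : X →* ℂˣ) = dualAct X (g : K) (dualAct X (h : K) l)
        rw [map_mul]; rfl) }
  have hP : IsPGroup u (Subgroup.zpowers k) :=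
    IsPGroup.iff_card.2 ⟨e, by rw [Nat.card_zpowers, hk]⟩
  obtain ⟨l, hl, hne⟩ := hP.exists_fixed_point_of_prime_dvd_card_of_fixed_point (invTor X u) hdvd
    (a := 1) (fun g => Subtype.ext (map_one (dualAct X (g : K))))
  exact ⟨l, l.2, fun h => hne (Subtype.ext h.symm),
    congrArg Subtype.val (hl ⟨k, Subgroup.mem_zpowers k⟩)⟩

/-- An irreducible character is non-zero on elements that are central modulo its kernel. -/
theorem ne_zero_of_comm_ker {G : Type u} [Group G] [Finite G] {θ : G → ℂ}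
    (hθ : IsIrrCharacter G θ) {w : G} (hw : ∀ x : G, θ ⁅w, x⁆ = θ 1) : θ w ≠ 0 := by
  obtain ⟨R, hR, hmem⟩ := Char.isCharacter_exists_kernel (Char.isCharacter_of_irr hθ)
  haveI := hR
  obtain ⟨ψ, hψ, hval⟩ := Char.irr_exists_descend hθ R fun n hn => (hmem n).1 hn
  have hc : (QuotientGroup.mk w : G ⧸ R) ∈ Subgroup.center (G ⧸ R) := by
    refine Subgroup.mem_center_iff.2 fun q => ?_
    obtain ⟨x, rfl⟩ := QuotientGroup.mk_surjective q
    have h := (QuotientGroup.eq_one_iff ⁅w, x⁆).2 ((hmem _).2 (hw x))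
    rw [commutatorElement_def, QuotientGroup.mk_mul, QuotientGroup.mk_mul, QuotientGroup.mk_mul,
      QuotientGroup.mk_inv, QuotientGroup.mk_inv, mul_inv_eq_one, mul_inv_eq_iff_eq_mul] at h
    exact h.symm
  obtain ⟨ω, hω, hψw, -⟩ := Char.irr_mul_center hψ hc
  rw [hval, hψw]
  refine mul_ne_zero (fun h0 => ?_) (Char.irr_one_ne_zero hψ)
  rw [h0, zero_pow (orderOf_pos _).ne'] at hω
  exact zero_ne_one hω

variable (S : Setting K)
include S

/-- A non-linear character of a non-abelian derived subgroup with small inertia group. -/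
theorem Setting.exists_small_inertia
    (hne : (⁅commutator K, commutator K⁆ : Subgroup K) ≠ ⊥) (I₀ : Subgroup K)
    (hI₀ : ∀ l : commutator K →* ℂˣ, l ≠ 1 →
      CharExt.inertia (commutator K) (CharExt.homVal l) = I₀) :
    ∃ θ : commutator K → ℂ, IsIrrCharacter (commutator K) θ ∧ θ 1 ≠ 1 ∧
      CharExt.inertia (commutator K) θ ≤ I₀ := by
  classical
  letI := Fintype.ofFinite K
  set X := (⁅commutator K, commutator K⁆ : Subgroup K) with hX
  have hXN : X ≤ commutator K := Subgroup.commutator_le_self _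
  -- a prime-order character of `X / [X, N]`
  set X₃ := (⁅X, commutator K⁆ : Subgroup K) with hX₃
  have hX₃X : X₃ ≤ X := Subgroup.commutator_le_left _ _
  haveI : X₃.Normal := inferInstanceAs (⁅X, commutator K⁆ : Subgroup K).Normal
  haveI : (X₃.subgroupOf X).Normal := Subgroup.normal_subgroupOf
  have hlt : ¬ X ≤ X₃ := commutator_lt_of_nilpotent hXN S.nilpotent hne
  obtain ⟨x₀, hx₀, hx₀'⟩ := SetLike.not_le_iff_exists.1 hlt
  letI : CommGroup (↥X ⧸ X₃.subgroupOf X) :=
    { (inferInstance : Group (↥X ⧸ X₃.subgroupOf X)) with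
      mul_comm := fun a b => by
        obtain ⟨a, rfl⟩ := QuotientGroup.mk_surjective a
        obtain ⟨b, rfl⟩ := QuotientGroup.mk_surjective b
        show QuotientGroup.mk (a * b) = QuotientGroup.mk (b * a)
        rw [QuotientGroup.eq]
        refine Subgroup.mem_subgroupOf.2 ?_
        rw [show (((a * b)⁻¹ * (b * a) : X) : K) = ⁅((b : K))⁻¹, ((a : K))⁻¹⁆ by
          simp [commutatorElement_def, mul_assoc]]
        exact Subgroup.commutator_mem_commutator (inv_mem b.2) (inv_mem (hXN a.2)) }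
  obtain ⟨f, hf⟩ := CommGroup.exists_apply_ne_one_of_hasEnoughRootsOfUnity
    (↥X ⧸ X₃.subgroupOf X) ℂ (a := QuotientGroup.mk ⟨x₀, hx₀⟩)
    (fun h => hx₀' (Subgroup.mem_subgroupOf.1 ((QuotientGroup.eq_one_iff _).1 h)))
  set μ₁ : X →* ℂˣ := f.comp (QuotientGroup.mk' _) with hμ₁
  have hμ₁1 : μ₁ ≠ 1 := fun h => hf (DFunLike.congr_fun h ⟨x₀, hx₀⟩)
  haveI := Char.monoidHom_complex_finite (G := ↥X)
  haveI := Char.monoidHom_complex_finite (G := ↥(commutator K))
  obtain ⟨u, hu, hudvd⟩ := Nat.exists_prime_and_dvd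
    (show orderOf μ₁ ≠ 1 from fun h => hμ₁1 (orderOf_eq_one_iff.1 h))
  haveI := Fact.mk hu
  set μ₀ := μ₁ ^ (orderOf μ₁ / u) with hμ₀
  have hordμ₀ : orderOf μ₀ = u := orderOf_pow_orderOf_div (isOfFinOrder_of_finite μ₁).orderOf_pos.ne' hudvd
  have hμ₀1 : μ₀ ≠ 1 := fun h => hu.ne_one (by rw [← hordμ₀, h, orderOf_one])
  have hμ₁inv : μ₁ ∈ invDual X := fun n hn => MonoidHom.ext fun x => by
    rw [dualAct_apply]
    refine congrArg f ?_
    show QuotientGroup.mk _ = QuotientGroup.mk x
    rw [QuotientGroup.eq]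
    refine Subgroup.mem_subgroupOf.2 ?_
    rw [Subgroup.coe_mul, Subgroup.coe_inv]
    show (n⁻¹ * x * n)⁻¹ * (x : K) ∈ X₃
    rw [show (n⁻¹ * x * n)⁻¹ * (x : K) = ⁅n⁻¹, ((x : K))⁻¹⁆ by group, hX₃,
      Subgroup.commutator_comm]
    exact Subgroup.commutator_mem_commutator (inv_mem hn) (inv_mem x.2)
  have hμ₀V : μ₀ ∈ invTor X u :=
    mem_invTor.2 ⟨pow_mem hμ₁inv _, hordμ₀ ▸ pow_orderOf_eq_one μ₀⟩
  -- the pairing
  have hpair : ∀ {μ : X →* ℂˣ} (h : μ ∈ invTor X u) (w : commutator K),
      pairing μ (mem_invTor.1 h).1 w ∈ invTor (commutator K) u := fun {μ} h w =>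
    mem_invTor.2 ⟨mem_invDual_self _, MonoidHom.ext fun x => by
      show μ (commElt w x) ^ u = 1
      rw [← MonoidHom.pow_apply, (mem_invTor.1 h).2]; rfl⟩
  have hσN : ∀ x ∈ commutator K, S.σ x ∈ commutator K := fun x hx => S.sigma_mem hx
  have hσX : ∀ x ∈ X, S.σ x ∈ X := by
    intro x hx
    have h : (⁅commutator K, commutator K⁆ : Subgroup K).map S.σ.toMonoidHom ≤ X := by
      rw [Subgroup.map_commutator]
      refine Subgroup.commutator_mono ?_ ?_ <;> rintro _ ⟨y, hy, rfl⟩ <;> exact hσN y hy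
    exact h ⟨x, hx, rfl⟩
  obtain ⟨w₀, hw₀⟩ := exists_pairing_ne_one μ₀ (mem_invTor.1 hμ₀V).1 hμ₀1
  obtain ⟨n₁, a₁, ha₁, hn₁, hc₁⟩ := exists_exponents S le_rfl hσN hu
    ⟨⟨_, (mem_invTor.1 (hpair hμ₀V w₀)).1, (mem_invTor.1 (hpair hμ₀V w₀)).2, hw₀⟩⟩
  obtain ⟨n₂, a₂, ha₂, hn₂, hc₂⟩ := exists_exponents S hXN hσX hu
    ⟨⟨μ₀, (mem_invTor.1 hμ₀V).1, (mem_invTor.1 hμ₀V).2, hμ₀1⟩⟩
  have hn : n₁ = n₂ := exponent_eq hu.two_le ha₁ ha₂ S.two_le_card_moving hc₁ hc₂
  -- a character of `N` and an element of `N` outside its kernel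
  set χ₀ := pairing μ₀ (mem_invTor.1 hμ₀V).1 w₀ with hχ₀def
  have hχ₀ : χ₀ ∈ invTor (commutator K) u := hpair hμ₀V w₀
  obtain ⟨v, hv⟩ : ∃ v, χ₀ v ≠ 1 := by
    by_contra hc
    push Not at hc
    exact hw₀ (MonoidHom.ext hc)
  obtain ⟨μ, hμV, hμ1, hμv⟩ : ∃ μ : X →* ℂˣ, ∃ h : μ ∈ invTor X u,
      μ ≠ 1 ∧ pairing μ (mem_invTor.1 h).1 v = 1 := by
    by_contra hc
    push Not at hc
    let Φ : invTor X u → invTor (commutator K) u := fun m => ⟨_, hpair m.2 v⟩
    have hΦ : Function.Injective Φ := fun m m' h => by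
      refine div_eq_one.1 ?_
      by_contra hne1
      refine hc _ (m / m').2 (fun h' => hne1 (Subtype.ext h')) (MonoidHom.ext fun x => ?_)
      have h' := DFunLike.congr_fun (congrArg Subtype.val h) x
      change (m : X →* ℂˣ) (commElt v x) = (m' : X →* ℂˣ) (commElt v x) at h'
      show ((m / m' : invTor X u) : X →* ℂˣ) (commElt v x) = 1
      rw [Subgroup.coe_div, MonoidHom.div_apply, h', div_self']
    obtain ⟨m, hm⟩ := (hΦ.bijective_of_nat_card_le (by rw [hn₁, hn₂, hn])).2 ⟨χ₀, hχ₀⟩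
    refine hv ?_
    have h' := DFunLike.congr_fun (congrArg Subtype.val hm) v
    change (m : X →* ℂˣ) (commElt v v) = χ₀ v at h'
    rw [← h', show commElt v v = 1 from Subtype.ext (commutatorElement_self (v : K)), map_one]
  have hμinv := (mem_invTor.1 hμV).1
  set M := (pairing μ hμinv).ker with hM
  have hvM : v ∈ M := MonoidHom.mem_ker.2 hμv
  -- the derived subgroup of the group `N`
  have hmemX : ∀ c : commutator (↥(commutator K)), ((c : commutator K) : K) ∈ X := fun c => by
    rw [hX, ← map_commutator_subtype]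
    exact ⟨(c : commutator K), c.2, rfl⟩
  have hmemN : ∀ {c : commutator K}, (c : K) ∈ X → c ∈ commutator (↥(commutator K)) := by
    intro c hc
    rw [hX, ← map_commutator_subtype] at hc
    obtain ⟨z, hz, hzc⟩ := hc
    rwa [← Subtype.ext (show (z : K) = c from hzc)]
  let μn : commutator (↥(commutator K)) →* ℂˣ :=
    { toFun := fun c => μ ⟨_, hmemX c⟩
      map_one' := map_one μ
      map_mul' := fun a b => map_mul μ ⟨_, hmemX a⟩ ⟨_, hmemX b⟩ }
  -- a character over `μ`
  obtain ⟨θ, hθ, hθμ⟩ : ∃ θ : commutator K → ℂ, IsIrrCharacter (commutator K) θ ∧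
      ∀ c : commutator (↥(commutator K)), θ c = θ 1 * μn c := by
    letI := Fintype.ofFinite (↥(commutator K))
    letI := Fintype.ofFinite (commutator (↥(commutator K)))
    have hirr : IsIrrCharacter _ (CharExt.homVal μn) := Char.isIrrCharacter_monoidHom μn
    obtain ⟨θ, e, he, hθe⟩ := Char.exists_irr_constituent
      (CharInd.isCharacter_indFun _ (Char.isCharacter_of_irr hirr)) (fun h => by
        have h1 := congrFun h 1
        rw [CharInd.indFun_one_apply, Pi.zero_apply] at h1
        simp [CharExt.homVal, Subgroup.index_ne_zero_of_finite] at h1)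
    have hc0 : classInner (fun c : commutator (↥(commutator K)) => (θ : commutator K → ℂ) c)
        (CharExt.homVal μn) ≠ 0 := by
      intro h0
      rw [CharInd.classInner_indFun_left _ _ (Char.irr_isClassFunction θ.2),
        ← CharInd.classInner_swap (fun c : commutator (↥(commutator K)) => (θ : commutator K → ℂ) c)
          (CharExt.homVal μn), h0, map_zero] at hθe
      exact he.ne' (Nat.cast_eq_zero.1 hθe.symm)
    have hsing := CharExt.conjClass_eq_singleton (commutator (↥(commutator K)))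
      (φ := CharExt.homVal μn) (eq_top_iff.2 fun x _ => CharExt.mem_inertia.2 (funext fun c => by
        rw [CharInd.conjChar_apply]
        exact congrArg Units.val (invariant_apply μ hμinv x ⟨_, hmemX c⟩)))
    have hcl := CharInd.clifford (commutator (↥(commutator K))) θ.2 hirr hc0
    rw [hsing, Finset.sum_singleton] at hcl
    refine ⟨θ, θ.2, fun c => ?_⟩
    have h1 := congrFun hcl 1
    have h2 := congrFun hcl c
    simp only [Pi.smul_apply, smul_eq_mul, OneMemClass.coe_one] at h1 h2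
    rw [h2, h1, show CharExt.homVal μn 1 = 1 from congrArg Units.val (map_one μn), mul_one]
    rfl
  have hθn : ∀ {θ' : commutator K → ℂ}, IsIrrCharacter (commutator K) θ' →
      (∀ c : commutator (↥(commutator K)), θ' c = θ' 1 * μn c) → θ' 1 ≠ 1 := by
    intro θ' hθ' h' h1
    refine hμ1 (MonoidHom.ext fun c => Units.ext ?_)
    have h2 := h' ⟨⟨(c : K), hXN c.2⟩, hmemN c.2⟩
    rw [Char.linear_eq_one_of_mem_commutator (Char.isCharacter_of_irr hθ') h1 (hmemN c.2), h1,
      one_mul] at h2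
    exact h2.symm
  by_contra hcon
  push Not at hcon
  -- elements of prime-power order in an inertia group, outside `I₀`
  have hpick : ∀ {θ' : commutator K → ℂ}, IsIrrCharacter (commutator K) θ' →
      (∀ c : commutator (↥(commutator K)), θ' c = θ' 1 * μn c) →
      ∃ k : K, k ∈ CharExt.inertia (commutator K) θ' ∧ dualAct X k μ = μ ∧ k ∉ I₀ ∧
        (orderOf k).Coprime u := by
    intro θ' hθ' h'
    obtain ⟨k, hk, hk0⟩ := SetLike.not_le_iff_exists.1 (hcon θ' hθ' (hθn hθ' h'))
    have hI₀N : commutator K ≤ I₀ := by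
      rw [← hI₀ χ₀ hw₀]
      exact CharExt.le_inertia _ (Char.irr_isClassFunction (Char.isIrrCharacter_monoidHom χ₀))
    obtain ⟨s, j, e, hs, hord, hj⟩ := exists_primePow_notMem hI₀N hk0
    have hkj := pow_mem hk j
    refine ⟨k ^ j, hkj, MonoidHom.ext fun c => Units.ext ?_, hj, ?_⟩
    · rw [dualAct_apply]
      have hfix := congrFun (CharExt.mem_inertia.1 (inv_mem hkj)) ⟨(c : K), hXN c.2⟩
      rw [CharInd.conjChar_apply] at hfix
      have hc' : (k ^ j)⁻¹ * (c : K) * (k ^ j) ∈ X := by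
        simpa using (inferInstance : X.Normal).conj_mem _ c.2 (k ^ j)⁻¹
      have e1 := h' ⟨⟨_, hXN hc'⟩, hmemN hc'⟩
      have e2 := h' ⟨⟨(c : K), hXN c.2⟩, hmemN c.2⟩
      refine mul_left_cancel₀ (Char.irr_one_ne_zero hθ') ?_
      refine (e1.symm.trans ((congrArg θ' (Subtype.ext (by simp))).trans hfix)).trans e2
    · rw [hord]
      refine ((Nat.coprime_primes hs hu).2 fun hsu => hj ?_).pow_left e
      subst hsu
      obtain ⟨l, hl, hl1, hlfix⟩ := exists_fixed_of_pow (X := commutator K) (u := s) (by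
        have h1 := orderOf_dvd_natCard (⟨χ₀, hχ₀⟩ : invTor (commutator K) s)
        rwa [Subgroup.orderOf_mk, orderOf_eq_prime (mem_invTor.1 hχ₀).2 hw₀] at h1) hord
      rw [← hI₀ l hl1]
      exact (dualAct_eq_iff _ _ l).1 hlfix
  -- stability of `M` and the rigidity of the characters of exponent `u`
  have hMstab : ∀ {k : K}, dualAct X k μ = μ → ∀ w ∈ M, (⟨k⁻¹ * (w : commutator K) * k, by
      simpa using (inferInstance : (commutator K).Normal).conj_mem _ (w : commutator K).2 k⁻¹⟩ :
        commutator K) ∈ M := by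
    intro k hk w hw
    refine MonoidHom.mem_ker.2 (MonoidHom.ext fun x => ?_)
    have h1 := DFunLike.congr_fun (MonoidHom.mem_ker.1 hw) ⟨k * x * k⁻¹,
      (inferInstance : (commutator K).Normal).conj_mem _ x.2 k⟩
    change μ (commElt _ _) = 1 at h1
    show μ (commElt _ x) = 1
    conv_lhs at h1 => rw [← hk, dualAct_apply]
    refine Eq.trans (congrArg μ (Subtype.ext ?_)) h1
    simp [commElt, commutatorElement_def, mul_assoc]
  have hrigid : ∀ {k : K}, dualAct X k μ = μ → k ∉ I₀ → (orderOf k).Coprime u →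
      ∀ {χ : commutator K →* ℂˣ}, χ ∈ invTor (commutator K) u →
      (∀ w ∈ M, dualAct (commutator K) k χ w = χ w) → ∀ w ∈ M, χ w = 1 := by
    intro k hk hk0 hcop χ hχ hfix w hw
    obtain ⟨χ', -, hfix', hval⟩ := exists_fixed_agreeing hu hcop hχ M hfix (hMstab hk)
    have hone : χ' = 1 := by
      by_contra hne1
      exact hk0 (hI₀ χ' hne1 ▸ (dualAct_eq_iff _ _ χ').1 hfix')
    rw [← hval w hw, hone, MonoidHom.one_apply]
  -- the two inertia elements
  obtain ⟨k, hkθ, hkμ, hk0, hkcop⟩ := hpick hθ hθμ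
  have hθ₂ := Char.isIrrCharacter_mul_monoidHom hθ χ₀
  obtain ⟨k', hk'θ, hk'μ, hk'0, hk'cop⟩ := hpick hθ₂ (fun c => by
    show (χ₀ (c : commutator K) : ℂ) * θ c = (χ₀ 1 : ℂ) * θ 1 * μn c
    rw [hθμ, show χ₀ (c : commutator K) = 1 from Abelianization.commutator_subset_ker χ₀ c.2,
      map_one]
    ring)
  have hθfix : ∀ (g : K), g ∈ CharExt.inertia (commutator K) θ → ∀ z : commutator K,
      θ ⟨g * z * g⁻¹, (inferInstance : (commutator K).Normal).conj_mem _ z.2 g⟩ = θ z :=
    fun g hg z => congrFun (CharExt.mem_inertia.1 hg) z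
  set g := χ₀ / dualAct (commutator K) k'⁻¹ χ₀ with hg
  have hgV : g ∈ invTor (commutator K) u := div_mem hχ₀ (mem_invTor.2 ⟨mem_invDual_self _, by
    rw [← map_pow (dualAct (commutator K) k'⁻¹), (mem_invTor.1 hχ₀).2, map_one]⟩)
  have hrel : ∀ z : commutator K,
      θ ⟨k' * z * k'⁻¹, (inferInstance : (commutator K).Normal).conj_mem _ z.2 k'⟩ =
        θ z * (g z : ℂ) := by
    intro z
    have h1 := congrFun (CharExt.mem_inertia.1 hk'θ) z
    rw [CharInd.conjChar_apply] at h1
    rw [hg, MonoidHom.div_apply, Units.val_div_eq_div_val, dualAct_apply, ← mul_div_assoc,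
      eq_div_iff (Units.ne_zero _)]
    rw [mul_comm, mul_comm (θ z)]
    refine Eq.trans ?_ h1
    congr 1
    exact congrArg (fun t => (χ₀ t : ℂ)) (Subtype.ext (by simp))
  have hgfix : ∀ w ∈ M, dualAct (commutator K) k g w = g w := by
    intro w hw
    rw [dualAct_apply]
    set w₂ : commutator K := ⟨k⁻¹ * w * k, by
      simpa using (inferInstance : (commutator K).Normal).conj_mem _ w.2 k⁻¹⟩ with hw₂
    have hθw₂ : θ w₂ = θ w := by
      rw [← hθfix _ (inv_mem hkθ) w]
      exact congrArg θ (Subtype.ext (by simp [hw₂]))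
    have hθ1w₂ : θ ⟨k' * w₂ * k'⁻¹, (inferInstance : (commutator K).Normal).conj_mem _ w₂.2 k'⟩ =
        θ ⟨k' * w * k'⁻¹, (inferInstance : (commutator K).Normal).conj_mem _ w.2 k'⟩ := by
      set z : commutator K :=
        ⟨k' * w * k'⁻¹, (inferInstance : (commutator K).Normal).conj_mem _ w.2 k'⟩ with hz
      set z₂ : commutator K := ⟨k⁻¹ * z * k, by
        simpa using (inferInstance : (commutator K).Normal).conj_mem _ z.2 k⁻¹⟩ with hz₂
      set n : commutator K := ⟨⁅k', k⁻¹⁆,
        Subgroup.commutator_mem_commutator (Subgroup.mem_top _) (Subgroup.mem_top _)⟩ with hn'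
      have h1 : θ z₂ = θ z := by
        rw [← hθfix _ (inv_mem hkθ) z]
        exact congrArg θ (Subtype.ext (by simp [hz₂]))
      rw [← h1, ← Char.irr_isClassFunction hθ z₂ n]
      refine congrArg θ (Subtype.ext ?_)
      simp [hn', hz₂, hz, hw₂, commutatorElement_def, mul_assoc]
    have h1 := hrel w₂
    rw [hθ1w₂, hrel, hθw₂] at h1
    have hne0 : θ w ≠ 0 := ne_zero_of_comm_ker hθ fun x => by
      have hc : ⁅w, x⁆ ∈ commutator (↥(commutator K)) :=
        Subgroup.commutator_mem_commutator (Subgroup.mem_top _) (Subgroup.mem_top _)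
      rw [hθμ ⟨_, hc⟩]
      have h2 := DFunLike.congr_fun (MonoidHom.mem_ker.1 hw) x
      change μ (commElt w x) = 1 at h2
      rw [show μn ⟨_, hc⟩ = 1 from (congrArg μ (Subtype.ext rfl)).trans h2, Units.val_one, mul_one]
    exact Units.ext (mul_left_cancel₀ hne0 h1).symm
  have hg1 := hrigid hkμ hk0 hkcop hgV hgfix
  have hχ₀fix : ∀ w ∈ M, dualAct (commutator K) k' χ₀ w = χ₀ w := by
    intro w hw
    have hw₂ := hMstab hk'μ w hw
    have h1 := hg1 _ hw₂
    rw [hg, MonoidHom.div_apply, div_eq_one] at h1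
    rw [dualAct_apply]
    refine h1.trans ?_
    rw [dualAct_apply]
    exact congrArg χ₀ (Subtype.ext (by simp [mul_assoc]))
  exact hv (hrigid hk'μ hk'0 hk'cop hχ₀ hχ₀fix v hvM)

/-- All non-linear degrees are equal. -/
theorem Setting.degree_eq (ψ ψ' : IrrCharacter K) (hψ : charDegree (ψ : K → ℂ) ≠ 1)
    (hψ' : charDegree (ψ' : K → ℂ) ≠ 1) :
    charDegree (ψ : K → ℂ) = charDegree (ψ' : K → ℂ) := by
  classical
  letI := Fintype.ofFinite K
  letI := Fintype.ofFinite (commutator K)
  -- some linear character of the derived subgroup is non-trivial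
  obtain ⟨θ₀, hθ₀, -⟩ := exists_constituent_ne_one (commutator K) le_rfl ψ hψ
  have hN : commutator K ≠ ⊥ := fun h => hψ (by
    have hcomm : ∀ a b : K, a * b = b * a := fun a b => by
      have h1 : ⁅a, b⁆ ∈ commutator K :=
        Subgroup.commutator_mem_commutator (Subgroup.mem_top a) (Subgroup.mem_top b)
      rw [h, Subgroup.mem_bot] at h1
      exact commutatorElement_eq_one_iff_mul_comm.1 h1
    have h1 := Char.irr_degree_one_of_comm hcomm ψ.2
    rw [(irr_charDegree_spec ψ.2).2] at h1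
    exact_mod_cast h1)
  obtain ⟨l₀, hl₀⟩ : ∃ l : commutator K →* ℂˣ, l ≠ 1 := by
    haveI := S.nilpotent
    have hlt := commutator_lt_of_nilpotent (X := commutator K) le_rfl S.nilpotent hN
    obtain ⟨x, hx, hx'⟩ := SetLike.not_le_iff_exists.1 hlt
    have h1 : Abelianization.of (⟨x, hx⟩ : commutator K) ≠ 1 := fun h => by
      refine hx' ?_
      rw [← map_commutator_subtype]
      exact ⟨_, (QuotientGroup.eq_one_iff _).1 h, rfl⟩
    obtain ⟨f, hf⟩ := CommGroup.exists_apply_ne_one_of_hasEnoughRootsOfUnity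
      (Abelianization (commutator K)) ℂ h1
    exact ⟨f.comp Abelianization.of, fun h => hf (DFunLike.congr_fun h ⟨x, hx⟩)⟩
  set I₀ := CharExt.inertia (commutator K) (CharExt.homVal l₀) with hI₀def
  have hI₀ : ∀ l : commutator K →* ℂˣ, l ≠ 1 →
      CharExt.inertia (commutator K) (CharExt.homVal l) = I₀ := fun l hl => S.inertia_uniform hl hl₀
  obtain ⟨ψ₀, hψ₀, hd₀⟩ := S.exists_degree_index hl₀
  -- a character over a constituent with small inertia group has the degree `|K : I₀|`
  have key : ∀ (χ : IrrCharacter K) (θ : commutator K → ℂ), IsIrrCharacter (commutator K) θ →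
      classInner (fun n : commutator K => (χ : K → ℂ) n) θ ≠ 0 →
      CharExt.inertia (commutator K) θ ≤ I₀ → charDegree (χ : K → ℂ) ≠ 1 →
      charDegree (χ : K → ℂ) = I₀.index ∧ charDegree θ = 1 := by
    intro χ θ hθ hc hle hne
    obtain ⟨e, he, -, -, h1⟩ := CharExt.clifford_data (commutator K) χ.2 hθ hc
    rw [(irr_charDegree_spec χ.2).2, (irr_charDegree_spec hθ).2] at h1
    have h2 : charDegree (χ : K → ℂ) =
        e * (CharExt.inertia (commutator K) θ).index * charDegree θ := by exact_mod_cast h1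
    obtain ⟨c, hc'⟩ := Subgroup.index_dvd_of_le hle
    have hd := S.noDiv ψ₀ χ hψ₀ hne ⟨e * c * charDegree θ, by rw [hd₀, h2, hc']; ring⟩
    rw [hd₀, h2, hc'] at hd
    have hpos : 0 < I₀.index := Nat.pos_of_ne_zero Subgroup.index_ne_zero_of_finite
    have h3 : I₀.index * (e * c * charDegree θ) = I₀.index * 1 := by rw [mul_one]; linarith
    refine ⟨by rw [h2, hc']; linarith, ?_⟩
    exact Nat.eq_one_of_mul_eq_one_left (Nat.eq_of_mul_eq_mul_left hpos h3)
  -- the derived subgroup is abelian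
  have habel : (⁅commutator K, commutator K⁆ : Subgroup K) = ⊥ := by
    by_contra hne
    obtain ⟨θ, hθ, hθ1, hle⟩ := S.exists_small_inertia hne I₀ hI₀
    obtain ⟨χ, e, he, hχ⟩ := Char.exists_irr_constituent
      (CharInd.isCharacter_indFun (commutator K) (Char.isCharacter_of_irr hθ)) (fun h => by
        have h1 := congrFun h 1
        rw [CharInd.indFun_one_apply, Pi.zero_apply] at h1
        exact mul_ne_zero (Nat.cast_ne_zero.mpr Subgroup.index_ne_zero_of_finite)
          (Char.irr_one_ne_zero hθ) h1)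
    have hc : classInner (fun n : commutator K => (χ : K → ℂ) n) θ ≠ 0 := by
      intro h0
      rw [CharInd.classInner_indFun_left _ _ (Char.irr_isClassFunction χ.2),
        ← CharInd.classInner_swap (fun n : commutator K => (χ : K → ℂ) n) θ, h0, map_zero] at hχ
      exact he.ne' (Nat.cast_eq_zero.1 hχ.symm)
    have hθd : charDegree θ ≠ 1 := fun h => hθ1 (by
      rw [(irr_charDegree_spec hθ).2, h, Nat.cast_one])
    refine hθd (key χ θ hθ hc hle fun hd => hθd ?_).2
    obtain ⟨e', he', -, -, h1⟩ := CharExt.clifford_data (commutator K) χ.2 hθ hc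
    rw [(irr_charDegree_spec χ.2).2, hd, (irr_charDegree_spec hθ).2] at h1
    have h2 : 1 = e' * (CharExt.inertia (commutator K) θ).index * charDegree θ := by
      exact_mod_cast h1
    exact Nat.eq_one_of_mul_eq_one_left h2.symm
  have hall : ∀ χ : IrrCharacter K, charDegree (χ : K → ℂ) ≠ 1 →
      charDegree (χ : K → ℂ) = I₀.index := by
    intro χ hχ
    obtain ⟨θ, hθ1, hc⟩ := exists_constituent_ne_one (commutator K) le_rfl χ hχ
    have hcomm : ∀ a b : commutator K, a * b = b * a := fun a b => by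
      have h1 : ⁅(a : K), (b : K)⁆ ∈ (⁅commutator K, commutator K⁆ : Subgroup K) :=
        Subgroup.commutator_mem_commutator a.2 b.2
      rw [habel, Subgroup.mem_bot] at h1
      exact Subtype.ext (commutatorElement_eq_one_iff_mul_comm.1 h1)
    obtain ⟨f, hf⟩ := Char.irr_exists_monoidHom_of_comm hcomm θ.2
    have hθf : (θ : commutator K → ℂ) = CharExt.homVal f := funext hf
    refine (key χ θ θ.2 hc (le_of_eq ?_) hχ).1
    rw [hθf]
    exact hI₀ f fun h => hθ1 (by rw [hθf, h])
  rw [hall ψ hψ, hall ψ' hψ']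

end Cfsg.Agent.CharGraph.NoDiv
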