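import Cfsg.Agent.CharGraph.RelativeDet
import Cfsg.Agent.CharGraph.Palfy.Degree
import Cfsg.Agent.Char.Thompson
import Cfsg.Agent.Char.Orthogonality
import Cfsg.Agent.Transfer.Residual

/-!
# An automorphism fixing all non-linear characters

If an automorphism `σ` of `K` fixes every non-linear irreducible character, then those characters
vanish wherever a twist `l ∘ σ / l` of a linear character is non-trivial, and the order of such a
twist divides all non-linear degrees.
-/

namespace Cfsg.Agent.CharGraph.NoDiv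

set_option autoImplicit false
set_option linter.unusedSectionVars false
set_option linter.style.haveILetI false

open Cfsg
open scoped ComplexConjugate
open Cfsg.Agent.Char (irr_charDegree_spec)

universe u

variable {K : Type u} [Group K] [Finite K]

/-- The degree of an irreducible character. -/
local notation "dg" χ => Cfsg.charDegree ((χ : IrrCharacter K) : K → ℂ)

/-- The twist `l ∘ σ / l` of a linear character. -/
noncomputable def twist (σ : MulAut K) (l : K →* ℂˣ) : K →* ℂˣ := l.comp σ.toMonoidHom / l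

theorem twist_apply (σ : MulAut K) (l : K →* ℂˣ) (k : K) : twist σ l k = l (σ k) / l k := rfl

/-- Every non-linear irreducible character is fixed by `σ`. -/
def FixesNonlinear (σ : MulAut K) : Prop :=
  ∀ ψ : IrrCharacter K, (dg ψ) ≠ 1 → ∀ k, (ψ : K → ℂ) (σ k) = (ψ : K → ℂ) k

/-- No non-linear degree properly divides another. -/
def NoDivides (K : Type u) [Group K] : Prop :=
  ∀ ψ ψ' : IrrCharacter K, charDegree (ψ : K → ℂ) ≠ 1 → charDegree (ψ' : K → ℂ) ≠ 1 →
    charDegree (ψ : K → ℂ) ∣ charDegree (ψ' : K → ℂ) →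
    charDegree (ψ : K → ℂ) = charDegree (ψ' : K → ℂ)

variable {σ : MulAut K} (hσ : FixesNonlinear σ)
include hσ

theorem twist_mul_eq (l : K →* ℂˣ) (ψ : IrrCharacter K) (hψ : (dg ψ) ≠ 1) (k : K) :
    (twist σ l k : ℂ) * (ψ : K → ℂ) k = (ψ : K → ℂ) k := by
  have hd : charDegree (fun g => (l g : ℂ) * (ψ : K → ℂ) g) = dg ψ := by
    simp [charDegree]
  have h := hσ ⟨_, Char.isIrrCharacter_mul_monoidHom ψ.2 l⟩ (by simpa [hd] using hψ) k
  change (l (σ k) : ℂ) * (ψ : K → ℂ) (σ k) = (l k : ℂ) * (ψ : K → ℂ) k at h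
  rw [hσ ψ hψ k] at h
  have hl : (l k : ℂ) ≠ 0 := Units.ne_zero _
  rw [twist_apply, Units.val_div_eq_div_val]
  field_simp
  linear_combination h

theorem vanish_of_twist (l : K →* ℂˣ) (ψ : IrrCharacter K) (hψ : (dg ψ) ≠ 1) {k : K}
    (hk : twist σ l k ≠ 1) : (ψ : K → ℂ) k = 0 := by
  by_contra h0
  exact hk (Units.ext (mul_eq_right₀ h0 |>.1 (twist_mul_eq hσ l ψ hψ k)))

theorem orderOf_twist_dvd (l : K →* ℂˣ) (ψ : IrrCharacter K) (hψ : (dg ψ) ≠ 1) :
    orderOf (twist σ l) ∣ dg ψ := by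
  have h := CharGraph.Rel.detHom_mul (twist σ l) (Char.isCharacter_of_irr ψ.2)
  rw [show CharExt.homVal (twist σ l) * (ψ : K → ℂ) = (ψ : K → ℂ) from
    funext (twist_mul_eq hσ l ψ hψ)] at h
  exact orderOf_dvd_of_pow_eq_one (right_eq_mul.1 h)

/-- An element moved modulo the derived subgroup. -/
theorem exists_twist_ne_one {k : K} (hk : σ k * k⁻¹ ∉ commutator K) :
    ∃ l, twist σ l k ≠ 1 := by
  have h1 : Abelianization.of (σ k * k⁻¹) ≠ 1 := fun h => hk ((QuotientGroup.eq_one_iff _).1 h)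
  obtain ⟨f, hf⟩ := CommGroup.exists_apply_ne_one_of_hasEnoughRootsOfUnity (Abelianization K) ℂ h1
  exact ⟨f.comp Abelianization.of, fun h => hf (by
    rw [twist_apply, div_eq_one] at h
    simp only [MonoidHom.comp_apply] at h
    rw [map_mul, map_inv, map_mul, map_inv, h, mul_inv_cancel])⟩

theorem vanish_of_moved (ψ : IrrCharacter K) (hψ : (dg ψ) ≠ 1) {k : K}
    (hk : σ k * k⁻¹ ∉ commutator K) : (ψ : K → ℂ) k = 0 :=
  (exists_twist_ne_one hσ hk).elim fun l hl => vanish_of_twist hσ l ψ hψ hl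

/-- The column of a moved element. -/
theorem sum_eq_linear {k h : K} (hk : σ k * k⁻¹ ∉ commutator K)
    (hkh : h * k⁻¹ ∈ commutator K) [Fintype K] :
    ∑ χ : IrrCharacter K, (χ : K → ℂ) k * conj ((χ : K → ℂ) h) = ((commutator K).index : ℂ) := by
  classical
  rw [← Finset.sum_subset (Finset.subset_univ
    (Finset.univ.filter fun χ : IrrCharacter K => (χ : K → ℂ) 1 = 1)) fun χ _ hχ => ?_,
    Finset.sum_congr rfl (g := fun _ => (1 : ℂ)) fun χ hχ => ?_, Finset.sum_const, nsmul_one,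
    ← Fintype.card_subtype, ← Nat.card_eq_fintype_card, Char.card_linear_irr]
  · obtain ⟨f, hf⟩ := Char.exists_monoidHom_of_degree_one (Char.isCharacter_of_irr χ.2)
      (Finset.mem_filter.1 hχ).2
    have h1 := Abelianization.commutator_subset_ker f hkh
    rw [MonoidHom.mem_ker, map_mul, map_inv, mul_inv_eq_one] at h1
    rw [hf, hf, h1, Complex.mul_conj', Complex.norm_eq_one_of_pow_eq_one (n := orderOf k)
      (by rw [← Units.val_pow_eq_pow_val, ← map_pow, pow_orderOf_eq_one, map_one, Units.val_one])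
      (orderOf_pos k).ne']
    simp
  · have hd : (dg χ) ≠ 1 := fun hd => hχ (Finset.mem_filter.2 ⟨Finset.mem_univ _, by
      rw [(irr_charDegree_spec χ.2).2, hd, Nat.cast_one]⟩)
    rw [vanish_of_moved hσ χ hd hk, zero_mul]

theorem card_centralizer_of_moved {k : K} (hk : σ k * k⁻¹ ∉ commutator K) :
    Nat.card (Subgroup.centralizer ({k} : Set K)) = (commutator K).index := by
  classical
  letI := Fintype.ofFinite K
  have h := sum_eq_linear hσ hk (h := k) (by simp)
  rw [Char.sum_irr_mul_conj, if_pos (IsConj.refl k)] at h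
  exact_mod_cast h

theorem isConj_of_moved {k n : K} (hk : σ k * k⁻¹ ∉ commutator K) (hn : n ∈ commutator K) :
    IsConj k (n * k) := by
  classical
  letI := Fintype.ofFinite K
  by_contra hc
  have h := sum_eq_linear hσ hk (h := n * k) (by simpa using hn)
  rw [Char.sum_irr_mul_conj, if_neg hc] at h
  exact Subgroup.index_ne_zero_of_finite (Nat.cast_eq_zero.1 h.symm)

omit hσ in
/-- A fixed moved residue: some element of order `r` is moved modulo a normal `r'`-subgroup. -/
theorem exists_moved_of_order {r p i : ℕ} (hr : r.Prime) (hp : p.Prime) (hrp : r ≠ p)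
    (hσp : σ ^ p ^ i = 1) (M : Subgroup K) [M.Normal] (hMσ : ∀ m ∈ M, σ m ∈ M)
    (hab : commutator K ≤ M) (hM : (Nat.card M).Coprime r) {e : ℕ} (he : M.index = r ^ e)
    (l : K →* ℂˣ) (hl : r ∣ orderOf (twist σ l)) :
    ∃ y : K, y ^ r = 1 ∧ σ y * y⁻¹ ∉ M := by
  set π := QuotientGroup.mk' M
  have hcomm : ∀ a b : K ⧸ M, a * b = b * a := fun a b => by
    obtain ⟨a, rfl⟩ := QuotientGroup.mk_surjective a
    obtain ⟨b, rfl⟩ := QuotientGroup.mk_surjective b
    rw [← QuotientGroup.mk_mul, ← QuotientGroup.mk_mul, QuotientGroup.eq]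
    refine hab ?_
    rw [show (a * b)⁻¹ * (b * a) = b⁻¹ * a⁻¹ * (b⁻¹)⁻¹ * (a⁻¹)⁻¹ by group]
    exact Subgroup.commutator_mem_commutator (Subgroup.mem_top _) (Subgroup.mem_top _)
  letI : CommGroup (K ⧸ M) := { (inferInstance : Group (K ⧸ M)) with mul_comm := hcomm }
  -- `σ` moves something modulo `M`
  obtain ⟨x, hx⟩ : ∃ x, σ x * x⁻¹ ∉ M := by
    by_contra hc
    push Not at hc
    refine hr.ne_one (Nat.eq_one_of_dvd_coprimes hM ?_ dvd_rfl)
    refine hl.trans (orderOf_dvd_of_pow_eq_one (MonoidHom.ext fun k => ?_))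
    rw [MonoidHom.pow_apply, twist_apply, MonoidHom.one_apply,
      show l (σ k) / l k = l (σ k * k⁻¹) by rw [map_mul, map_inv, div_eq_mul_inv], ← map_pow,
      show (σ k * k⁻¹) ^ Nat.card M = 1 from
        congrArg Subtype.val (pow_card_eq_one' (x := (⟨_, hc k⟩ : M))), map_one]
  have hx1 : π (σ x * x⁻¹) ≠ 1 := fun h => hx ((QuotientGroup.eq_one_iff _).1 h)
  obtain ⟨j, hj⟩ : ∃ j, orderOf (π (σ x * x⁻¹) ^ j) = r := by
    obtain ⟨k, -, hk⟩ := (Nat.dvd_prime_pow hr).1 (show orderOf (π (σ x * x⁻¹)) ∣ r ^ e from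
      he ▸ Subgroup.index_eq_card M ▸ orderOf_dvd_natCard _)
    have hk0 : k ≠ 0 := fun h => hx1 (orderOf_eq_one_iff.1 (by rw [hk, h, pow_zero]))
    exact ⟨orderOf (π (σ x * x⁻¹)) / r, orderOf_pow_orderOf_div (orderOf_pos _).ne'
      (hk ▸ dvd_pow_self r hk0)⟩
  set w := x ^ j with hw
  set z := σ w * w⁻¹ with hz
  have hπz : orderOf (π z) = r := by
    rw [← hj, hz, hw]
    congr 1
    rw [map_mul, map_inv, map_pow σ, map_pow π, map_pow π, map_mul, map_inv, mul_pow, inv_pow]
  have hπσ : ∀ {a b : K}, π a = π b → π (σ a) = π (σ b) := fun {a b} h => by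
    rw [QuotientGroup.mk'_eq_mk'] at h
    obtain ⟨c, hc, rfl⟩ := h
    rw [map_mul, map_mul, show π (σ c) = 1 from (QuotientGroup.eq_one_iff _).2 (hMσ c hc), mul_one]
  -- `z` itself is moved
  have hzmov : π (σ z * z⁻¹) ≠ 1 := by
    intro h0
    rw [map_mul, map_inv, mul_inv_eq_one] at h0
    have hpow : ∀ n : ℕ, π ((σ ^ n) w) = π (z ^ n * w) := by
      intro n
      induction n with
      | zero => simp
      | succ n ih =>
        have hw' : π (σ w) = π z * π w := by rw [← map_mul π, hz, inv_mul_cancel_right]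
        rw [pow_succ' σ n, MulAut.mul_apply, hπσ ih, map_mul σ, map_pow σ, map_mul π, map_mul π,
          map_pow π, map_pow π, h0, hw', pow_succ, mul_assoc]
    have h1 := hpow (p ^ i)
    rw [hσp, MulAut.one_apply, map_mul, map_pow π, right_eq_mul] at h1
    rw [map_pow π] at h1
    have h2 := orderOf_dvd_of_pow_eq_one h1
    rw [hπz] at h2
    exact hrp ((Nat.prime_dvd_prime_iff_eq hr hp).1 (hr.dvd_of_dvd_pow h2))
  refine ⟨z ^ Nat.card M, ?_, fun h => ?_⟩
  · rw [← pow_mul, mul_comm, pow_mul]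
    have hzr : z ^ r ∈ M := (QuotientGroup.eq_one_iff _).1 (show π (z ^ r) = 1 by
      rw [map_pow, ← hπz, pow_orderOf_eq_one])
    exact congrArg Subtype.val (pow_card_eq_one' (x := (⟨_, hzr⟩ : M)))
  · apply hzmov
    have h' : π (σ (z ^ Nat.card M) * (z ^ Nat.card M)⁻¹) = 1 := (QuotientGroup.eq_one_iff _).2 h
    rw [map_mul, map_inv, map_pow σ, map_pow π, map_pow π, ← inv_pow, ← mul_pow, ← map_inv,
      ← map_mul] at h'
    refine orderOf_eq_one_iff.1 (Nat.eq_one_of_dvd_coprimes ((hM.symm).pow_left e) ?_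
      (orderOf_dvd_of_pow_eq_one h'))
    exact he ▸ Subgroup.index_eq_card M ▸ orderOf_dvd_natCard _

end Cfsg.Agent.CharGraph.NoDiv
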