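import Cfsg.Agent.CharGraph.Palfy.Degree
import Cfsg.Agent.CharGraph.NoDiv.Twist
import Cfsg.Agent.CharDeg.Tools

/-!
# Degrees divisible by a prime, with a non-abelian quotient for that prime

If no non-linear degree of `K` divides another, all are divisible by the prime `r`, and `K` has a
non-abelian quotient of `r`-power order by a normal `r'`-subgroup, then all non-linear degrees are
equal.
-/

namespace Cfsg.Agent.CharGraph.NoDiv

set_option autoImplicit false
set_option linter.unusedSectionVars false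
set_option linter.style.haveILetI false

open Cfsg
open Cfsg.Agent.Char (irr_charDegree_spec)

universe u

variable {K : Type u} [Group K] [Finite K]

/-- The characters over a character that extends to its inertia group. -/
theorem exists_over (N T : Subgroup K) [N.Normal] [Fintype N] (hNT : N ≤ T) {θ : N → ℂ}
    (hθ : IsIrrCharacter N θ)
    (hT : ∀ g : K, g ∈ T ↔ ∀ n : N,
      θ ⟨g * n * g⁻¹, Subgroup.Normal.conj_mem inferInstance (n : K) n.2 g⟩ = θ n)
    {ξ : T → ℂ} (hξ : IsIrrCharacter T ξ) (hext : ∀ n : N, ξ ⟨n, hNT n.2⟩ = θ n)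
    (β : IrrCharacter (T ⧸ N.subgroupOf T)) :
    ∃ χ : IrrCharacter K, charDegree (χ : K → ℂ) =
      T.index * charDegree (β : T ⧸ N.subgroupOf T → ℂ) * charDegree θ := by
  classical
  letI := Fintype.ofFinite K
  letI := Fintype.ofFinite T
  letI := Fintype.ofFinite (N.subgroupOf T)
  set β' : T → ℂ := fun t => (β : T ⧸ N.subgroupOf T → ℂ) (QuotientGroup.mk t) with hβ'
  have hβ'i : IsIrrCharacter T β' :=
    CharInd.irr_comp_surjective (QuotientGroup.mk' _) (QuotientGroup.mk'_surjective _) β.2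
  have hinv : ∀ (n : N.subgroupOf T) (g : T), β' ((n : T) * g) = β' g := fun n g => by
    show (β : T ⧸ N.subgroupOf T → ℂ) _ = _
    rw [QuotientGroup.mk_mul, (QuotientGroup.eq_one_iff _).2 n.2, one_mul]
  have hres : IsIrrCharacter (N.subgroupOf T) (fun x : N.subgroupOf T => ξ x) := by
    have h1 := OddChar.irr_subgroupOf N T hNT hθ
    convert h1 using 2 with x
    exact hext ⟨((x : T) : K), Subgroup.mem_subgroupOf.1 x.2⟩
  have hψ := CharExt.isIrrCharacter_mul (N.subgroupOf T) ξ hξ hres hβ'i hinv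
  obtain ⟨b, hb0, hb⟩ := Char.irr_one_pos β.2
  have hψN : ∀ n : N, (β' * ξ) ⟨n, hNT n.2⟩ = (b : ℂ) * θ n := fun n => by
    show (β : T ⧸ N.subgroupOf T → ℂ) _ * ξ _ = _
    rw [show (QuotientGroup.mk (⟨(n : K), hNT n.2⟩ : T) : T ⧸ N.subgroupOf T) = 1 from
      (QuotientGroup.eq_one_iff _).2 (Subgroup.mem_subgroupOf.2 n.2), hb, hext]
  have hc : classInner (fun n : N => (β' * ξ) ⟨n, hNT n.2⟩) θ ≠ 0 := by
    rw [show (fun n : N => (β' * ξ) ⟨n, hNT n.2⟩) = (b : ℂ) • θ from funext hψN,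
      Char.classInner_smul_left, Char.classInner_irr_self hθ, mul_one]
    exact_mod_cast hb0.ne'
  have hind := OddChar.indFun_inertia_irr N T hNT hθ hT hψ hc
  refine ⟨⟨_, hind⟩, ?_⟩
  have h1 : indFun T (β' * ξ) 1 = ((T.index * charDegree (β : T ⧸ N.subgroupOf T → ℂ) *
      charDegree θ : ℕ) : ℂ) := by
    have hξ1 := hext 1
    rw [show (⟨((1 : N) : K), hNT (1 : N).2⟩ : T) = 1 from rfl] at hξ1
    rw [CharInd.indFun_one_apply, Pi.mul_apply, hξ1, (irr_charDegree_spec hθ).2,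
      show β' 1 = (β : T ⧸ N.subgroupOf T → ℂ) 1 by rw [hβ']; rfl, (irr_charDegree_spec β.2).2]
    push_cast
    ring
  have h2 := (irr_charDegree_spec hind).2
  rw [h1] at h2
  exact (Nat.cast_inj.1 h2).symm

theorem charDegree_eq_of_apply_one {G : Type u} [Group G] [Finite G] {χ : G → ℂ}
    (h : IsIrrCharacter G χ) {d : ℕ} (hd : χ 1 = d) : charDegree χ = d := by
  rw [(irr_charDegree_spec h).2] at hd
  exact_mod_cast hd

/-- All non-linear degrees are equal. -/
theorem degree_eq_of_quotient {r e : ℕ} (hr : r.Prime)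
    (hall : ∀ ψ : IrrCharacter K, charDegree (ψ : K → ℂ) ≠ 1 → r ∣ charDegree (ψ : K → ℂ))
    (M : Subgroup K) [M.Normal] (hM : (Nat.card M).Coprime r) (he : M.index = r ^ e)
    (hnab : ¬ commutator K ≤ M) (hnd : NoDivides K) (ψ ψ' : IrrCharacter K)
    (hψ : charDegree (ψ : K → ℂ) ≠ 1) (hψ' : charDegree (ψ' : K → ℂ) ≠ 1) :
    charDegree (ψ : K → ℂ) = charDegree (ψ' : K → ℂ) := by
  classical
  letI := Fintype.ofFinite K
  letI := Fintype.ofFinite M
  -- the degree of the quotient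
  have hne : commutator (K ⧸ M) ≠ ⊥ := fun h => hnab (by
    intro x hx
    have h1 : QuotientGroup.mk' M x ∈ (commutator K).map (QuotientGroup.mk' M) := ⟨x, hx, rfl⟩
    have h2 : (commutator K).map (QuotientGroup.mk' M) ≤ commutator (K ⧸ M) := by
      rw [commutator_def, commutator_def, Subgroup.map_commutator]
      exact Subgroup.commutator_mono le_top le_top
    have h3 := h2 h1
    rw [h, Subgroup.mem_bot] at h3
    exact (QuotientGroup.eq_one_iff x).1 h3)
  obtain ⟨γ, hγ⟩ := CharGraph.exists_nonlinear_irr hne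
  have hinfl : ∀ δ : IrrCharacter (K ⧸ M), ∃ χ : IrrCharacter K,
      charDegree (χ : K → ℂ) = charDegree (δ : K ⧸ M → ℂ) := fun δ =>
    ⟨⟨_, CharInd.irr_comp_surjective (QuotientGroup.mk' M) (QuotientGroup.mk'_surjective M) δ.2⟩, by
      simp [charDegree]⟩
  have hpow : ∀ δ : IrrCharacter (K ⧸ M), ∃ a, charDegree (δ : K ⧸ M → ℂ) = r ^ a := fun δ => by
    obtain ⟨d, -, hd, hdvd⟩ := Char.irr_degree_dvd_card δ.2
    rw [← Subgroup.index_eq_card, he] at hdvd
    obtain ⟨a, -, ha⟩ := (Nat.dvd_prime_pow hr).1 hdvd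
    exact ⟨a, by rw [charDegree_eq_of_apply_one δ.2 hd, ha]⟩
  obtain ⟨χE, hχE⟩ := hinfl γ
  have hχE1 : charDegree (χE : K → ℂ) ≠ 1 := hχE ▸ hγ
  -- every non-linear degree is the degree of the quotient
  suffices h : ∀ χ : IrrCharacter K, charDegree (χ : K → ℂ) ≠ 1 →
      charDegree (χ : K → ℂ) = charDegree (χE : K → ℂ) by rw [h ψ hψ, h ψ' hψ']
  intro χ hχ
  obtain ⟨θ, m, hm, hθ⟩ := Char.exists_irr_constituent
    (CharInd.isCharacter_res M (Char.isCharacter_of_irr χ.2))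
    (fun h => Char.irr_one_ne_zero χ.2 (congrFun h 1))
  have hc : classInner (fun n : M => (χ : K → ℂ) n) (θ : M → ℂ) ≠ 0 := by
    rw [hθ]; exact_mod_cast hm.ne'
  set T := CharExt.inertia M (θ : M → ℂ) with hTdef
  letI := Fintype.ofFinite T
  have hMT : M ≤ T := CharExt.le_inertia M (Char.irr_isClassFunction θ.2)
  have hirrT : IsIrrCharacter (M.subgroupOf T)
      (fun x : M.subgroupOf T => (θ : M → ℂ) ⟨((x : T) : K), Subgroup.mem_subgroupOf.1 x.2⟩) :=
    OddChar.irr_subgroupOf M T hMT θ.2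
  obtain ⟨ξ, hξ, hξM⟩ := Palfy.exists_extension_coprime (M.subgroupOf T) hirrT (fun g n => by
      have h := congrFun (CharExt.mem_inertia.1 g.2) ⟨((n : T) : K), Subgroup.mem_subgroupOf.1 n.2⟩
      rw [CharInd.conjChar_apply] at h
      exact h) (by
      rw [show Nat.card (M.subgroupOf T) = Nat.card M from
        Nat.card_congr (Subgroup.subgroupOfEquivOfLe hMT).toEquiv]
      refine Nat.Coprime.coprime_dvd_left (m := M.subgroupOf T |>.index) ?_ (hM.symm.pow_left e)
      rw [← he]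
      exact Subgroup.relIndex_dvd_index_of_normal M T)
  have hext : ∀ n : M, ξ ⟨n, hMT n.2⟩ = (θ : M → ℂ) n := fun n =>
    hξM ⟨⟨n, hMT n.2⟩, n.2⟩
  have hover := exists_over M T hMT θ.2 (fun g => ⟨fun h n => congrFun h n, fun h => funext h⟩)
    hξ hext
  set b₁ := T.index * charDegree (θ : M → ℂ) with hb₁
  -- `b₁` divides the degree and is a degree
  obtain ⟨c, -, -, -, h1⟩ := CharExt.clifford_data M χ.2 θ.2 hc
  rw [(irr_charDegree_spec χ.2).2, (irr_charDegree_spec θ.2).2] at h1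
  have hdeg : charDegree (χ : K → ℂ) = c * T.index * charDegree (θ : M → ℂ) := by
    exact_mod_cast h1
  have hb₁dvd : b₁ ∣ charDegree (χ : K → ℂ) := ⟨c, by rw [hdeg, hb₁]; ring⟩
  obtain ⟨χ₁, hχ₁⟩ := hover ⟨fun _ => 1, by
    simpa using Char.isIrrCharacter_monoidHom (1 : T ⧸ M.subgroupOf T →* ℂˣ)⟩
  have hχ₁' : charDegree (χ₁ : K → ℂ) = b₁ := by
    rw [hχ₁, charDegree_eq_of_apply_one (χ := fun _ : T ⧸ M.subgroupOf T => (1 : ℂ))
      (by simpa using Char.isIrrCharacter_monoidHom (1 : T ⧸ M.subgroupOf T →* ℂˣ)) (d := 1)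
      (by simp), mul_one, hb₁]
  rcases eq_or_ne b₁ 1 with hb | hb
  · -- `θ` is linear and invariant: twist it away
    have hT1 : T.index = 1 := Nat.eq_one_of_mul_eq_one_right hb
    have hθ1 : charDegree (θ : M → ℂ) = 1 := Nat.eq_one_of_mul_eq_one_left hb
    have hTtop : T = ⊤ := Subgroup.index_eq_one.1 hT1
    have hξ1 : ξ 1 = 1 := by
      have h := hext 1
      rw [(irr_charDegree_spec θ.2).2, hθ1, Nat.cast_one] at h
      exact h
    obtain ⟨f, hf⟩ := Char.exists_monoidHom_of_degree_one (Char.isCharacter_of_irr hξ) hξ1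
    let l : K →* ℂˣ := f.comp ((MonoidHom.id K).codRestrict T fun x => hTtop ▸ Subgroup.mem_top x)
    have hl : ∀ n : M, (l n : ℂ) = (θ : M → ℂ) n := fun n => by
      rw [← hext n, hf]
      rfl
    have hθinv : ∀ φ ∈ CharInd.conjClass M (θ : M → ℂ), φ = (θ : M → ℂ) := by
      intro φ hφ
      rw [CharExt.conjClass_eq_singleton M hTtop, Finset.mem_singleton] at hφ
      exact hφ
    have hres := CharInd.clifford M χ.2 θ.2 hc
    rw [CharExt.conjClass_eq_singleton M hTtop, Finset.sum_singleton] at hres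
    have hχl := Char.isIrrCharacter_mul_monoidHom χ.2 l⁻¹
    have hker : ∀ n ∈ M, (fun g => ((l⁻¹ g : ℂˣ) : ℂ) * (χ : K → ℂ) g) n =
        (fun g => ((l⁻¹ g : ℂˣ) : ℂ) * (χ : K → ℂ) g) 1 := by
      intro n hn
      have hn1 := congrFun hres ⟨n, hn⟩
      have h11 := congrFun hres 1
      simp only [Pi.smul_apply, smul_eq_mul] at hn1 h11
      rw [(irr_charDegree_spec θ.2).2, hθ1, Nat.cast_one, mul_one] at h11
      show ((l n)⁻¹ : ℂˣ).val * (χ : K → ℂ) n = ((l 1)⁻¹ : ℂˣ).val * (χ : K → ℂ) 1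
      rw [hn1, ← h11, OneMemClass.coe_one, map_one, inv_one, Units.val_one, one_mul,
        ← hl ⟨n, hn⟩, mul_comm _ ((l ((⟨n, hn⟩ : M) : K) : ℂˣ) : ℂ), ← mul_assoc, ← Units.val_mul,
        inv_mul_cancel, Units.val_one, one_mul]
    obtain ⟨δ, hδ, hδv⟩ := Char.irr_exists_descend hχl M hker
    have hd : charDegree δ = charDegree (χ : K → ℂ) := by
      refine charDegree_eq_of_apply_one hδ ?_
      rw [← QuotientGroup.mk_one, ← hδv, map_one, Units.val_one, one_mul]
      exact (irr_charDegree_spec χ.2).2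
    obtain ⟨a, ha⟩ := hpow ⟨δ, hδ⟩
    obtain ⟨a', ha'⟩ := hpow γ
    simp only at ha
    rw [hd] at ha
    rw [← hχE] at ha'
    rcases le_total a a' with h | h
    · exact hnd χ χE hχ hχE1 (by rw [ha, ha']; exact pow_dvd_pow r h)
    · exact (hnd χE χ hχE1 hχ (by rw [ha, ha']; exact pow_dvd_pow r h)).symm
  · have hχd : charDegree (χ : K → ℂ) = b₁ :=
      ((hnd χ₁ χ (by rw [hχ₁']; exact hb) hχ (by rw [hχ₁']; exact hb₁dvd)).symm).trans hχ₁'
    -- `T / M` is abelian
    have hlin : ∀ β : IrrCharacter (T ⧸ M.subgroupOf T),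
        charDegree (β : T ⧸ M.subgroupOf T → ℂ) = 1 := fun β => by
      obtain ⟨χ₂, hχ₂⟩ := hover β
      have hpos : 0 < b₁ := hχ₁' ▸ (irr_charDegree_spec χ₁.2).1
      have h2 : charDegree (χ₂ : K → ℂ) = b₁ * charDegree (β : T ⧸ M.subgroupOf T → ℂ) := by
        rw [hχ₂, hb₁]; ring
      have hne2 : charDegree (χ₂ : K → ℂ) ≠ 1 := fun h => hb (Nat.eq_one_of_mul_eq_one_right
        (h2 ▸ h))
      have h3 := hnd χ₁ χ₂ (by rw [hχ₁']; exact hb) hne2 (by rw [hχ₁', h2]; exact dvd_mul_right _ _)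
      rw [hχ₁', h2] at h3
      exact Nat.eq_of_mul_eq_mul_left hpos (by rw [mul_one]; exact h3.symm)
    have hA : ∀ a ∈ T.map (QuotientGroup.mk' M), ∀ b ∈ T.map (QuotientGroup.mk' M),
        a * b = b * a := by
      rintro _ ⟨a, ha, rfl⟩ _ ⟨b, hb', rfl⟩
      have h := CharDeg.comm_of_forall_linear hlin (QuotientGroup.mk ⟨a, ha⟩)
        (QuotientGroup.mk ⟨b, hb'⟩)
      rw [← QuotientGroup.mk_mul, ← QuotientGroup.mk_mul, QuotientGroup.eq] at h
      rw [← map_mul, ← map_mul]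
      exact QuotientGroup.eq.2 (Subgroup.mem_subgroupOf.1 h)
    have hle := CharDeg.deg_le_index_of_comm _ hA γ
    rw [Subgroup.index_map_eq _ (QuotientGroup.mk'_surjective M) (by
      rw [QuotientGroup.ker_mk']; exact hMT), ← hχE] at hle
    obtain ⟨a, -, ha⟩ := (Nat.dvd_prime_pow hr).1 (he ▸ Subgroup.index_dvd_of_le hMT)
    obtain ⟨a', ha'⟩ := hpow γ
    rw [← hχE] at ha'
    rw [ha'] at hle
    rw [ha, Nat.pow_le_pow_iff_right hr.one_lt] at hle
    refine (hnd χE χ hχE1 hχ ?_).symm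
    rw [ha', hχd, hb₁, ha]
    exact dvd_mul_of_dvd_left (pow_dvd_pow r hle) _

end Cfsg.Agent.CharGraph.NoDiv
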