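import Cfsg.Agent.CharGraph.NoDiv.Derived
import Cfsg.Agent.CharGraph.NoDiv.NonAb
import Cfsg.Agent.CharGraph.Dichotomy

/-!
# No divisibility among degrees and a disconnected degree graph: three degrees
-/

namespace Cfsg.Agent.CharGraph.NoDiv

set_option autoImplicit false
set_option linter.unusedSectionVars false
set_option linter.style.haveILetI false

open Cfsg
open Cfsg.Agent.Char (irr_charDegree_spec)

universe u

/-- Non-linear degrees of a group with an automorphism of prime-power order fixing all non-linear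
characters and moving a linear one. -/
theorem degree_eq_of_auto {K : Type u} [Group K] [Finite K] {σ : MulAut K} {p i : ℕ}
    (hp : p.Prime) (hσp : σ ^ p ^ i = 1) (hfix : FixesNonlinear σ) (hnd : NoDivides K)
    (hnot : ∀ ψ : IrrCharacter K, charDegree (ψ : K → ℂ) ≠ 1 → ¬ p ∣ charDegree (ψ : K → ℂ))
    (l : K →* ℂˣ) (hl : twist σ l ≠ 1) (ψ ψ' : IrrCharacter K)
    (hψ : charDegree (ψ : K → ℂ) ≠ 1) (hψ' : charDegree (ψ' : K → ℂ) ≠ 1) :
    charDegree (ψ : K → ℂ) = charDegree (ψ' : K → ℂ) := by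
  haveI := Char.monoidHom_complex_finite (G := K)
  obtain ⟨r, hr, hrl⟩ := Nat.exists_prime_and_dvd
    (show orderOf (twist σ l) ≠ 1 from fun h => hl (orderOf_eq_one_iff.1 h))
  haveI := Fact.mk hr
  have hall : ∀ χ : IrrCharacter K, charDegree (χ : K → ℂ) ≠ 1 → r ∣ charDegree (χ : K → ℂ) :=
    fun χ hχ => hrl.trans (orderOf_twist_dvd hfix l χ hχ)
  have hrp : r ≠ p := fun h => hnot ψ hψ (h ▸ hall ψ hψ)
  have hcard := Char.not_dvd_card_pResidual_of_degrees (p := r) hall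
  obtain ⟨e, he⟩ := Transfer.exists_index_pResidual_eq_pow (p := r) (G := K)
  have hcop : (Nat.card (pResidual r K)).Coprime r := (hr.coprime_iff_not_dvd.2 hcard).symm
  by_cases hab : commutator K ≤ pResidual r K
  · have hMσ : ∀ m ∈ pResidual r K, σ m ∈ pResidual r K := fun m hm => by
      rw [← Transfer.map_pResidual_equiv (p := r) (σ : K ≃* K)]
      exact ⟨m, hm, rfl⟩
    obtain ⟨y, hyr, hy⟩ := exists_moved_of_order hr hp hrp hσp (pResidual r K) hMσ hab hcop he l hrl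
    let S : Setting K :=
      { σ := σ, p := p, i := i, r := r, y := y, hp := hp, hr := hr, hrp := hrp, hσp := hσp
        fixes := hfix, noDiv := hnd, not_dvd := hnot, hyr := hyr
        hy := fun h => hy (hab h)
        hcop := fun h => hcard (h.trans (Subgroup.card_dvd_of_le hab)) }
    exact S.degree_eq ψ ψ' hψ hψ'
  · exact degree_eq_of_quotient hr hall (pResidual r K) hcop he hab hnd ψ ψ' hψ hψ'

variable {G : Type u} [Group G] [Finite G]

theorem one_mem_charDegrees : 1 ∈ charDegrees G :=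
  ⟨Char.trivialIrr G, by simp [charDegree,
    show ((Char.trivialIrr G : IrrCharacter G) : G → ℂ) 1 = 1 from rfl]⟩

theorem pos_of_mem {d : ℕ} (hd : d ∈ charDegrees G) : 0 < d := by
  obtain ⟨χ, rfl⟩ := hd
  exact (irr_charDegree_spec χ.2).1

/-- A connected graph does not have two components. -/
theorem false_of_all_reachable
    (htwo : Nat.card ((degreeGraph G).induce (degreePrimes G)).ConnectedComponent = 2)
    (s : ℕ) (hs : s ∈ degreePrimes G)
    (h : ∀ t (ht : t ∈ degreePrimes G),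
      ((degreeGraph G).induce (degreePrimes G)).Reachable ⟨t, ht⟩ ⟨s, hs⟩) : False := by
  set H := (degreeGraph G).induce (degreePrimes G) with hH
  have hall : ∀ c : H.ConnectedComponent, c = H.connectedComponentMk ⟨s, hs⟩ := fun c =>
    c.ind fun v => SimpleGraph.ConnectedComponent.eq.2 (h v.1 v.2)
  haveI : Subsingleton H.ConnectedComponent := ⟨fun a b => (hall a).trans (hall b).symm⟩
  have h1 : Nat.card H.ConnectedComponent ≤ 1 := Finite.card_le_one_iff_subsingleton.2 inferInstance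
  omega

/-- Two primes dividing the same degree are reachable. -/
theorem reachable_of_dvd {d s t : ℕ} (hd : d ∈ charDegrees G) (hs : s ∈ degreePrimes G)
    (ht : t ∈ degreePrimes G) (h1 : t ∣ d) (h2 : s ∣ d) :
    ((degreeGraph G).induce (degreePrimes G)).Reachable ⟨t, ht⟩ ⟨s, hs⟩ := by
  rcases eq_or_ne t s with rfl | hne
  · exact SimpleGraph.Reachable.refl _
  · exact SimpleGraph.Adj.reachable (show (degreeGraph G).Adj t s from
      ⟨hne, ht.1, hs.1, d, hd,
        ((Nat.coprime_primes ht.1 hs.1).2 hne).mul_dvd_of_dvd_of_dvd h1 h2⟩)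

/-- No divisibility and two components give three degrees. -/
theorem three_degrees [Group.IsSolvable G]
    (hnd : ∀ a ∈ charDegrees G, ∀ b ∈ charDegrees G, 1 < a → a < b → ¬ a ∣ b)
    (htwo : Nat.card ((degreeGraph G).induce (degreePrimes G)).ConnectedComponent = 2) :
    Nat.card ↥(charDegrees G) = 3 := by
  classical
  letI := Fintype.ofFinite G
  have heq : ∀ {a b : ℕ}, a ∈ charDegrees G → b ∈ charDegrees G → 1 < a → a ∣ b → a = b :=
    fun {a b} ha hb h1 hab => ((Nat.le_of_dvd (pos_of_mem hb) hab).lt_or_eq).elim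
      (fun h => absurd hab (hnd a ha b hb h1 h)) id
  obtain ⟨⟨s₀, hs₀⟩⟩ : Nonempty (degreePrimes G) := by
    by_contra hne
    rw [not_nonempty_iff] at hne
    haveI : IsEmpty ((degreeGraph G).induce (degreePrimes G)).ConnectedComponent :=
      ⟨fun c => c.ind fun v => hne.elim v⟩
    rw [Nat.card_of_isEmpty] at htwo
    exact absurd htwo (by norm_num)
  have hna : commutator G ≠ ⊥ := fun h => by
    obtain ⟨d, ⟨χ, rfl⟩, hsd⟩ := hs₀.2
    have hcomm : ∀ a b : G, a * b = b * a := fun a b => by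
      have hz := (commutator_eq_bot_iff_center_eq_top _).1 h
      exact Subgroup.mem_center_iff.1 (hz ▸ Subgroup.mem_top b) a
    rw [CharDeg.deg_eq_one_of_comm hcomm χ] at hsd
    exact hs₀.1.not_dvd_one hsd
  obtain ⟨N, ⟨hNn, hNna⟩, hmax⟩ :=
    ({L : Subgroup G | L.Normal ∧ ¬ commutator G ≤ L}.toFinite).exists_maximal
      ⟨⊥, inferInstance, fun h => hna (le_bot_iff.1 h)⟩
  haveI := hNn
  set π := QuotientGroup.mk' N with hπ
  have hπs : Function.Surjective π := QuotientGroup.mk'_surjective N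
  have hcomQ : commutator (G ⧸ N) = (commutator G).map π := by
    rw [commutator_def, commutator_def, Subgroup.map_commutator,
      Subgroup.map_top_of_surjective π hπs]
  have hnaQ : commutator (G ⧸ N) ≠ ⊥ := by
    rw [hcomQ, Ne, Subgroup.map_eq_bot_iff, QuotientGroup.ker_mk']
    exact hNna
  rcases shape_of_minimal hnaQ (fun L hL hLne => by
    rw [hcomQ, Subgroup.map_le_iff_le_comap]
    by_contra hcon
    have hle : N ≤ L.comap π := fun x hx => by
      rw [Subgroup.mem_comap, show π x = 1 from (QuotientGroup.eq_one_iff x).2 hx]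
      exact L.one_mem
    have := le_antisymm (hmax ⟨hL.comap π, hcon⟩ hle) hle
    apply hLne
    rw [← Subgroup.map_comap_eq_self_of_surjective hπs L, this, QuotientGroup.map_mk'_self]) with
    ⟨p, hp, hQ⟩ | ⟨M, q, hq, hMn, hcM, hMne, hMtop, hab, hexp, hfree⟩
  · -- every degree is divisible by `p`
    exfalso
    obtain ⟨j, hj, h1, h2⟩ := alternative_of_pGroup_quotient hp N hQ hNna
    have hpd : ∀ d ∈ charDegrees G, 1 < d → p ∣ d := fun d hd hd1 => by
      rcases h2 d hd with h | h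
      · exact h
      · have h3 := heq hd h hd1 (dvd_mul_left _ _)
        have h4 : 1 < p ^ j := Nat.one_lt_pow hj.ne' hp.one_lt
        nlinarith
    have hpmem : p ∈ degreePrimes G := ⟨hp, p ^ j, h1, dvd_pow_self p hj.ne'⟩
    refine false_of_all_reachable htwo p hpmem fun t ht => ?_
    obtain ⟨d, hd, htd⟩ := ht.2
    exact reachable_of_dvd hd hpmem ht htd (hpd d hd (lt_of_lt_of_le ht.1.one_lt
      (Nat.le_of_dvd (pos_of_mem hd) htd)))
  -- the Frobenius case
  set K := M.comap π with hK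
  haveI : K.Normal := hMn.comap π
  letI := Fintype.ofFinite K
  have hGK : commutator G ≤ K := Subgroup.map_le_iff_le_comap.1 (hcomQ ▸ hcM)
  have hab' : ∀ a ∈ K, ∀ b ∈ K, a * b * a⁻¹ * b⁻¹ ∈ N := fun a ha b hb =>
    (QuotientGroup.eq_one_iff _).1 (by
      have h := hab _ ha _ hb
      change π (a * b * a⁻¹ * b⁻¹) = 1
      rw [map_mul, map_mul, map_mul, map_inv, map_inv, h]; group)
  have hne : ∃ k ∈ K, k ∉ N := by
    obtain ⟨m, hm, hm1⟩ := (Subgroup.ne_bot_iff_exists_ne_one.1 hMne |>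
      fun ⟨x, hx⟩ => (⟨x, x.2, fun h => hx (Subtype.ext h)⟩ : ∃ m, m ∈ M ∧ m ≠ 1))
    obtain ⟨k, rfl⟩ := hπs m
    exact ⟨k, hm, fun h => hm1 ((QuotientGroup.eq_one_iff k).2 h)⟩
  have hfree' : ∀ g ∉ K, ∀ k ∈ K, g * k * g⁻¹ * k⁻¹ ∈ N → k ∈ N := fun g hg k hk h =>
    (QuotientGroup.eq_one_iff _).1 (hfree (π g) hg (π k) hk (by
      have h' : π (g * k * g⁻¹ * k⁻¹) = 1 := (QuotientGroup.eq_one_iff _).2 h
      rw [map_mul, map_mul, map_mul, map_inv, map_inv, mul_inv_eq_one,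
        mul_inv_eq_iff_eq_mul] at h'
      exact h'))
  have hmain := index_mul_mem_charDegrees K N hq hGK hab'
    (fun k hk => (QuotientGroup.eq_one_iff _).1 (by
      change π (k ^ q) = 1
      rw [map_pow]; exact hexp _ hk)) hne hfree'
  set f := K.index with hf
  have hf1 : 1 < f := by
    rw [hf, hK, Subgroup.index_comap_of_surjective M hπs]
    exact Nat.one_lt_iff_ne_zero_and_ne_one.2
      ⟨Subgroup.index_ne_zero_of_finite, fun h => hMtop (Subgroup.index_eq_one.1 h)⟩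
  have hfcd : f ∈ charDegrees G := by
    have h := hmain (Char.trivialIrr K) (by
      rw [show charDegree ((Char.trivialIrr K : IrrCharacter K) : K → ℂ) = 1 by
        simp [charDegree, show ((Char.trivialIrr K : IrrCharacter K) : K → ℂ) 1 = 1 from rfl]]
      exact hq.not_dvd_one)
    simpa [charDegree, show ((Char.trivialIrr K : IrrCharacter K) : K → ℂ) 1 = 1 from rfl] using h
  -- constituents on `K`
  have hqψ : ∀ ψ : IrrCharacter K, charDegree (ψ : K → ℂ) ≠ 1 → q ∣ charDegree (ψ : K → ℂ) := by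
    intro ψ hψ
    by_contra hnq
    have h := heq hfcd (hmain ψ hnq) hf1 (dvd_mul_right _ _)
    exact hψ (Nat.eq_of_mul_eq_mul_left (by omega) ((mul_one f).trans h)).symm
  have hconst : ∀ χ : IrrCharacter G, ∃ ψ : IrrCharacter K,
      classInner (fun k : K => (χ : G → ℂ) k) (ψ : K → ℂ) ≠ 0 ∧
      charDegree (ψ : K → ℂ) ∣ charDegree (χ : G → ℂ) ∧
      charDegree (χ : G → ℂ) / charDegree (ψ : K → ℂ) ∣ f := by
    intro χ
    obtain ⟨ψ, e, he, hψ⟩ := Char.exists_irr_constituent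
      (Char.isCharacter_restrict (Char.isCharacter_of_irr χ.2) K)
      (fun h => Char.irr_one_ne_zero χ.2 (congrFun h 1))
    have hne0 : classInner (fun k : K => (χ : G → ℂ) k) (ψ : K → ℂ) ≠ 0 := by
      rw [hψ]; exact_mod_cast he.ne'
    exact ⟨ψ, hne0, CharDeep.degree_ratio_dvd_index K χ.2 ψ.2 hne0
      (irr_charDegree_spec χ.2).2 (irr_charDegree_spec ψ.2).2⟩
  have hqd : ∀ d ∈ charDegrees G, 1 < d → d ≠ f → q ∣ d := by
    rintro _ ⟨χ, rfl⟩ hd1 hdf
    obtain ⟨ψ, -, hdvd, hidx⟩ := hconst χ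
    by_cases hψ : charDegree (ψ : K → ℂ) = 1
    · rw [hψ, Nat.div_one] at hidx
      exact absurd (heq ⟨χ, rfl⟩ hfcd hd1 hidx) hdf
    · exact (hqψ ψ hψ).trans hdvd
  obtain ⟨b₀, hb₀, hb₀1, hb₀f⟩ : ∃ b ∈ charDegrees G, 1 < b ∧ b ≠ f := by
    by_contra hc
    push Not at hc
    obtain ⟨s, hs, hsf⟩ := Nat.exists_prime_and_dvd hf1.ne'
    have hsm : s ∈ degreePrimes G := ⟨hs, f, hfcd, hsf⟩
    refine false_of_all_reachable htwo s hsm fun t ht => ?_
    obtain ⟨d, hd, htd⟩ := ht.2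
    have hdf := hc d hd (lt_of_lt_of_le ht.1.one_lt (Nat.le_of_dvd (pos_of_mem hd) htd))
    exact reachable_of_dvd hfcd hsm ht (hdf ▸ htd) hsf
  have hqmem : q ∈ degreePrimes G := ⟨hq, b₀, hb₀, hqd b₀ hb₀ hb₀1 hb₀f⟩
  have hcopf : ∀ d ∈ charDegrees G, 1 < d → d ≠ f → d.Coprime f := by
    intro d hd hd1 hdf
    by_contra hnc
    obtain ⟨s, hs, hsd, hsf⟩ := Nat.Prime.not_coprime_iff_dvd.1 hnc
    have hsm : s ∈ degreePrimes G := ⟨hs, f, hfcd, hsf⟩
    refine false_of_all_reachable htwo q hqmem fun t ht => ?_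
    obtain ⟨d', hd', htd⟩ := ht.2
    rcases eq_or_ne d' f with rfl | hne'
    · exact (reachable_of_dvd hd' hsm ht htd hsf).trans
        (reachable_of_dvd hd hqmem hsm hsd (hqd d hd hd1 hdf))
    · exact reachable_of_dvd hd' hqmem ht htd (hqd d' hd'
        (lt_of_lt_of_le ht.1.one_lt (Nat.le_of_dvd (pos_of_mem hd') htd)) hne')
  have hnqf : ¬ q ∣ f := fun h =>
    hq.not_dvd_one ((hcopf b₀ hb₀ hb₀1 hb₀f).gcd_eq_one ▸ Nat.dvd_gcd (hqd b₀ hb₀ hb₀1 hb₀f) h)
  -- the non-linear characters of `K` are restrictions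
  have hext : ∀ ψ : IrrCharacter K, charDegree (ψ : K → ℂ) ≠ 1 → ∃ χ : IrrCharacter G,
      (∀ k : K, (χ : G → ℂ) k = (ψ : K → ℂ) k) ∧
      charDegree (χ : G → ℂ) = charDegree (ψ : K → ℂ) ∧ (charDegree (ψ : K → ℂ)).Coprime f := by
    intro ψ hψ
    obtain ⟨χ, hχ⟩ := exists_irr_over K ψ
    obtain ⟨hdvd, hidx⟩ := CharDeep.degree_ratio_dvd_index K χ.2 ψ.2 hχ
      (irr_charDegree_spec χ.2).2 (irr_charDegree_spec ψ.2).2
    have hqχ : q ∣ charDegree (χ : G → ℂ) := (hqψ ψ hψ).trans hdvd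
    have hχ1 : 1 < charDegree (χ : G → ℂ) :=
      lt_of_lt_of_le hq.one_lt (Nat.le_of_dvd (irr_charDegree_spec χ.2).1 hqχ)
    have hc := hcopf _ ⟨χ, rfl⟩ hχ1 fun h => hnqf (h ▸ hqχ)
    have hone : charDegree (χ : G → ℂ) / charDegree (ψ : K → ℂ) = 1 :=
      Nat.eq_one_of_dvd_coprimes hc (Nat.div_dvd_of_dvd hdvd) hidx
    have hdeg : charDegree (χ : G → ℂ) = charDegree (ψ : K → ℂ) := by
      rw [← Nat.div_mul_cancel hdvd, hone, one_mul]
    refine ⟨χ, fun k => ?_, hdeg, hdeg ▸ hc⟩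
    exact congrFun (CharInd.eq_of_constituent_of_degree
      (Char.isCharacter_restrict (Char.isCharacter_of_irr χ.2) K) ψ.2 hχ (by
        rw [OneMemClass.coe_one, (irr_charDegree_spec χ.2).2, (irr_charDegree_spec ψ.2).2,
          hdeg])) k
  have hndK : NoDivides K := fun ψ ψ' hψ hψ' hdvd => by
    obtain ⟨χ, -, hd, -⟩ := hext ψ hψ
    obtain ⟨χ', -, hd', -⟩ := hext ψ' hψ'
    exact heq ⟨χ, hd⟩ ⟨χ', hd'⟩ (Nat.lt_of_le_of_ne (irr_charDegree_spec ψ.2).1 (Ne.symm hψ)) hdvd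
  -- an element of prime-power order outside `K`
  obtain ⟨g₀, -, hg₀⟩ : ∃ g, g ∈ (⊤ : Subgroup G) ∧ g ∉ K := by
    refine SetLike.not_le_iff_exists.1 fun h => ?_
    rw [top_le_iff] at h
    rw [hf, h, Subgroup.index_top] at hf1
    exact lt_irrefl 1 hf1
  obtain ⟨p, j, i, hp, hord, hgK⟩ := exists_primePow_notMem hGK hg₀
  set g := g₀ ^ j with hg
  have hpf : p ∣ f := by
    have h1 : orderOf (QuotientGroup.mk g : G ⧸ K) ∣ p ^ i := hord ▸ orderOf_map_dvd
      (QuotientGroup.mk' K) g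
    obtain ⟨k, -, hk⟩ := (Nat.dvd_prime_pow hp).1 h1
    have hk0 : k ≠ 0 := fun h => hgK ((QuotientGroup.eq_one_iff g).1
      (orderOf_eq_one_iff.1 (by rw [hk, h, pow_zero])))
    exact (dvd_pow_self p hk0).trans (hk ▸ orderOf_dvd_natCard _)
  set σ : MulAut K := MulAut.conjNormal g with hσ
  have hσp : σ ^ p ^ i = 1 := by
    rw [hσ, ← map_pow, ← hord, pow_orderOf_eq_one, map_one]
  have hfix : FixesNonlinear σ := fun ψ hψ k => by
    obtain ⟨χ, hχ, -, -⟩ := hext ψ hψ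
    rw [← hχ, ← hχ, hσ, MulAut.conjNormal_apply]
    exact Char.irr_isClassFunction χ.2 k g
  have hnot : ∀ ψ : IrrCharacter K, charDegree (ψ : K → ℂ) ≠ 1 →
      ¬ p ∣ charDegree (ψ : K → ℂ) := fun ψ hψ hdvd => by
    obtain ⟨χ, -, -, hc⟩ := hext ψ hψ
    exact hp.ne_one (Nat.eq_one_of_dvd_coprimes hc hdvd hpf)
  -- a moved linear character
  obtain ⟨l₁, hl₁⟩ : ∃ l : K ⧸ N.subgroupOf K →* ℂˣ, l ≠ 1 := by
    haveI : (N.subgroupOf K).Normal := Subgroup.normal_subgroupOf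
    letI : CommGroup (↥K ⧸ N.subgroupOf K) :=
      { (inferInstance : Group (↥K ⧸ N.subgroupOf K)) with
        mul_comm := fun a b => by
          obtain ⟨a, rfl⟩ := QuotientGroup.mk_surjective a
          obtain ⟨b, rfl⟩ := QuotientGroup.mk_surjective b
          show QuotientGroup.mk (a * b) = QuotientGroup.mk (b * a)
          rw [QuotientGroup.eq]
          refine Subgroup.mem_subgroupOf.2 ?_
          rw [show (((a * b)⁻¹ * (b * a) : K) : G) =
            (b : G)⁻¹ * (a : G)⁻¹ * ((b : G)⁻¹)⁻¹ * ((a : G)⁻¹)⁻¹ by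
              simp only [Subgroup.coe_mul, Subgroup.coe_inv]; group]
          exact hab' _ (inv_mem b.2) _ (inv_mem a.2) }
    obtain ⟨k, hk, hkN⟩ := hne
    obtain ⟨F, hF⟩ := CommGroup.exists_apply_ne_one_of_hasEnoughRootsOfUnity
      (↥K ⧸ N.subgroupOf K) ℂ (a := QuotientGroup.mk ⟨k, hk⟩)
      (fun h => hkN (Subgroup.mem_subgroupOf.1 ((QuotientGroup.eq_one_iff _).1 h)))
    exact ⟨F, fun h => hF (DFunLike.congr_fun h _)⟩
  have htw : twist σ (l₁.comp (QuotientGroup.mk' _)) ≠ 1 := fun h => hl₁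
    (hom_eq_one_of_fixed K N hab' (hfree' g hgK) (MonoidHom.ext fun x => by
      obtain ⟨k, rfl⟩ := QuotientGroup.mk_surjective x
      have h1 := DFunLike.congr_fun h k
      rw [twist_apply, MonoidHom.one_apply, div_eq_one] at h1
      rw [MonoidHom.comp_apply, quotientConj_mk]
      exact h1))
  -- one non-linear degree
  have hres : ∀ d ∈ charDegrees G, 1 < d → d ≠ f →
      ∃ ψ : IrrCharacter K, charDegree (ψ : K → ℂ) ≠ 1 ∧ charDegree (ψ : K → ℂ) = d := by
    rintro _ ⟨χ, rfl⟩ hd1 hdf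
    obtain ⟨ψ, -, hdvd, hidx⟩ := hconst χ
    have hone := Nat.eq_one_of_dvd_coprimes (hcopf _ ⟨χ, rfl⟩ hd1 hdf)
      (Nat.div_dvd_of_dvd hdvd) hidx
    have hdeg : charDegree (ψ : K → ℂ) = charDegree (χ : G → ℂ) := by
      conv_rhs => rw [← Nat.div_mul_cancel hdvd, hone, one_mul]
    exact ⟨ψ, by omega, hdeg⟩
  obtain ⟨ψ₀, hψ₀, hψ₀d⟩ := hres b₀ hb₀ hb₀1 hb₀f
  have hcd : charDegrees G = {1, f, b₀} := by
    ext d
    simp only [Set.mem_insert_iff, Set.mem_singleton_iff]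
    refine ⟨fun hd => ?_, ?_⟩
    · by_contra hc
      push Not at hc
      have hd1 : 1 < d := Nat.lt_of_le_of_ne (pos_of_mem hd) (Ne.symm hc.1)
      obtain ⟨ψ, hψ, hψd⟩ := hres d hd hd1 hc.2.1
      exact hc.2.2 (hψd ▸ hψ₀d ▸ degree_eq_of_auto hp hσp hfix hndK hnot _ htw ψ ψ₀ hψ hψ₀)
    · rintro (rfl | rfl | rfl)
      exacts [one_mem_charDegrees, hfcd, hb₀]
  rw [Nat.card_coe_set_eq, hcd]
  exact Set.ncard_eq_three.2 ⟨1, f, b₀, by omega, by omega, Ne.symm hb₀f, rfl⟩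

end Cfsg.Agent.CharGraph.NoDiv
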